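import Mathlib

/-!
# Divisibility of indices through orbits of the conjugation action
-/

set_option autoImplicit false

namespace Cfsg.Agent.H686.AO

open Subgroup
open scoped Pointwise

theorem dvd_relIndex {G : Type*} [Group G] {α : Type*} [MulAction G α] {A B : Subgroup G}
    {x : α} (hA : ∀ a ∈ A, a • x = x) {ι : Type*} (e : ι → α)
    (he : Function.Injective e) (h1 : ∀ b ∈ B, ∃ i, e i = b • x) (h2 : ∀ i, ∃ b ∈ B, b • x = e i) :
    Nat.card ι ∣ A.relIndex B := by
  have h3 : MulAction.orbit B x = Set.range e := by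
    ext y
    constructor
    · rintro ⟨b, rfl⟩
      obtain ⟨i, hi⟩ := h1 b b.2
      exact ⟨i, hi⟩
    · rintro ⟨i, rfl⟩
      obtain ⟨b, hb, hbi⟩ := h2 i
      exact ⟨⟨b, hb⟩, hbi⟩
  have h4 : (MulAction.stabilizer B x).index = Nat.card ι := by
    rw [MulAction.index_stabilizer, h3, Set.ncard_range_of_injective he]
  rw [← h4]
  refine Subgroup.index_dvd_of_le ?_
  intro a ha
  rw [MulAction.mem_stabilizer_iff]
  exact hA a ha

theorem dvd_relIndex_conj {G : Type*} [Group G] {A B : Subgroup G} {X : Subgroup G}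
    (hA : ∀ a ∈ A, MulAut.conj a • X = X) {ι : Type*} (e : ι → Subgroup G)
    (he : Function.Injective e) (h1 : ∀ b ∈ B, ∃ i, e i = MulAut.conj b • X)
    (h2 : ∀ i, ∃ b ∈ B, MulAut.conj b • X = e i) :
    Nat.card ι ∣ A.relIndex B := by
  let _ : MulAction G (Subgroup G) := MulAction.compHom (Subgroup G) (MulAut.conj : G →* MulAut G)
  exact dvd_relIndex (x := X) hA e he h1 h2

/-- **the step with `L`** -/
theorem dvd_relIndex_sup {G : Type*} [Group G] {A L : Subgroup G} {X : Subgroup G}
    (hA : ∀ a ∈ A, MulAut.conj a • X = X) (hL : ∀ a ∈ A, MulAut.conj a • L = L) {ι : Type*}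
    (e : ι → Subgroup G) (he : Function.Injective e) (h1 : ∀ b ∈ L, ∃ i, e i = MulAut.conj b • X)
    (h2 : ∀ i, ∃ b ∈ L, MulAut.conj b • X = e i) :
    Nat.card ι ∣ A.relIndex (A ⊔ L) := by
  refine dvd_relIndex_conj hA e he ?_ ?_
  · intro b hb
    have hn : A ≤ normalizer (L : Set G) := by
      intro a ha
      rw [mem_normalizer_iff]
      intro x
      have := hL a ha
      constructor
      · intro hx
        rw [← this]
        exact ⟨x, hx, rfl⟩
      · intro hx
        rw [← this] at hx
        obtain ⟨y, hy, hyx⟩ := hx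
        have : y = x := (MulAut.conj a).injective hyx
        rwa [← this]
    rw [sup_comm] at hb
    have hb' : b ∈ (L : Set G) * (A : Set G) := by
      rw [← SetLike.mem_coe] at hb
      rwa [Subgroup.coe_mul_of_right_le_normalizer_left _ _ hn] at hb
    obtain ⟨l, hl, a, ha, rfl⟩ := hb'
    rw [map_mul, mul_smul, hA a ha]
    exact h1 l hl
  · intro i
    obtain ⟨b, hb, hbi⟩ := h2 i
    exact ⟨b, mem_sup_right hb, hbi⟩

/-- **the step with a swap** -/
theorem two_dvd_relIndex_sup {G : Type*} [Group G] {A : Subgroup G} {g : G} {X Y : Subgroup G}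
    (hX : ∀ a ∈ A, MulAut.conj a • X = X) (hY : ∀ a ∈ A, MulAut.conj a • Y = Y)
    (h1 : MulAut.conj g • X = Y) (h2 : MulAut.conj g • Y = X) (hne : X ≠ Y) :
    2 ∣ A.relIndex (A ⊔ zpowers g) := by
  have h3 : Nat.card Bool ∣ A.relIndex (A ⊔ zpowers g) := by
    refine dvd_relIndex_conj hX (fun b => if b then X else Y) ?_ ?_ ?_
    · intro a b hab
      cases a <;> cases b <;> simp_all
    · let N : Subgroup G :=
        { carrier := {b | (MulAut.conj b • X = X ∧ MulAut.conj b • Y = Y) ∨
            (MulAut.conj b • X = Y ∧ MulAut.conj b • Y = X)}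
          one_mem' := Or.inl (by simp)
          mul_mem' := by
            intro a b ha hb
            simp only [Set.mem_ofPred_eq, map_mul, mul_smul] at *
            rcases ha with ⟨ha1, ha2⟩ | ⟨ha1, ha2⟩ <;> rcases hb with ⟨hb1, hb2⟩ | ⟨hb1, hb2⟩ <;>
              simp [ha1, ha2, hb1, hb2]
          inv_mem' := by
            intro a ha
            simp only [Set.mem_ofPred_eq, map_inv, inv_smul_eq_iff] at *
            rcases ha with ⟨ha1, ha2⟩ | ⟨ha1, ha2⟩
            · exact Or.inl ⟨ha1.symm, ha2.symm⟩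
            · exact Or.inr ⟨ha2.symm, ha1.symm⟩ }
      have hle : A ⊔ zpowers g ≤ N := by
        rw [sup_le_iff, zpowers_le]
        exact ⟨fun a ha => Or.inl ⟨hX a ha, hY a ha⟩, Or.inr ⟨h1, h2⟩⟩
      intro b hb
      rcases hle hb with h | h
      · exact ⟨true, by simp [h.1]⟩
      · exact ⟨false, by simp [h.1]⟩
    · intro b
      cases b
      · exact ⟨g, mem_sup_right (mem_zpowers g), by simpa using h1⟩
      · exact ⟨1, one_mem _, by simp⟩
  simpa using h3

end Cfsg.Agent.H686.AO
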