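import Mathlib
import Cfsg.Agent.H686.AO.Chain
import Cfsg.Agent.ChevalleyStructure.TwE6Basic
import Cfsg.Agent.ChevalleyStructure.SL2All
import Cfsg.Agent.OddHalf.LongSL.Chev

/-!
# The groups `SL₂(q)` of the `σ`-fixed roots in `²E₆(q)`

`Rq φ r = X_r ∩ fix φ`, `Lq φ r = ⟨Rq φ r, Rq φ (-r)⟩`.
-/

set_option autoImplicit false

namespace Cfsg.Agent.H686.AO

open Subgroup Cfsg Cfsg.Lie Cfsg.Agent.ChevalleyStructure Cfsg.Agent.ChevalleyStructure.Elts
open Cfsg.Agent.ChevalleyStructure.SL2Hom (up lo)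
open Cfsg.Agent.ChevalleyStructure.TwE6Basic Cfsg.Agent.ChevalleyStructure.GraphSymm
open scoped Pointwise Matrix

universe u

variable {K : Type u} [Field K]

/-- the homomorphism of the root `r` -/
noncomputable def PP (r : Fin 72) : Matrix.SpecialLinearGroup (Fin 2) K →* GL chevE6.Idx K :=
  SL2Hom.phi (SL2All.good_of_mem chevE6 hE6 r.val r.isLt) K

theorem PP_up (r : Fin 72) (t : K) : PP r (up t) = x r.val t :=
  Units.ext (SL2Hom.phi_upper _ _ t rfl)

theorem PP_lo (r : Fin 72) (t : K) : PP r (lo t) = x (Fin.rev r).val t := by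
  rw [← neg_eq]
  exact Units.ext (SL2Hom.phi_lower _ _ t rfl)

theorem PP_ker (r : Fin 72) (g : Matrix.SpecialLinearGroup (Fin 2) K) (hg : PP r g = 1) :
    g = 1 ∨ g = -1 := Cfsg.Agent.OddHalf.LongSL.Chev.phi_eq_one _ hg

/-- the root subgroup -/
abbrev XX (K : Type u) [Field K] (r : Fin 72) : Subgroup (GL chevE6.Idx K) := chevE6.rootSubgroup K r.val

theorem mem_XX {r : Fin 72} {g : GL chevE6.Idx K} : g ∈ XX K r ↔ ∃ t : K, g = PP r (up t) := by
  rw [mem_X]
  simp only [PP_up]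

theorem mem_XX' {r : Fin 72} {g : GL chevE6.Idx K} : g ∈ XX K (Fin.rev r) ↔ ∃ t : K, g = PP r (lo t) := by
  rw [mem_X]
  simp only [PP_lo]

theorem conj_smul_eq {G : Type*} [Group G] {g : G} {X Y : Subgroup G}
    (h1 : ∀ x ∈ X, g * x * g⁻¹ ∈ Y) (h2 : ∀ y ∈ Y, g⁻¹ * y * g ∈ X) : MulAut.conj g • X = Y := by
  ext y
  rw [Subgroup.mem_pointwise_smul_iff_inv_smul_mem, ← map_inv, MulAut.smul_def, MulAut.conj_apply,
    inv_inv]
  constructor
  · intro h
    have := h1 _ h
    have e : g * (g⁻¹ * y * g) * g⁻¹ = y := by group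
    rwa [e] at this
  · exact h2 y

theorem sl_ext_mul {A B C D : Matrix.SpecialLinearGroup (Fin 2) K} (h : A.1 * B.1 = C.1 * D.1) :
    A * B = C * D := Subtype.ext h

theorem det2 (g : Matrix.SpecialLinearGroup (Fin 2) K) :
    g.1 0 0 * g.1 1 1 - g.1 0 1 * g.1 1 0 = 1 := by
  rw [← Matrix.det_fin_two]; exact g.2

/-- upper triangular elements normalise the root subgroup -/
theorem conj_upper (r : Fin 72) {g : Matrix.SpecialLinearGroup (Fin 2) K} (hg : g.1 1 0 = 0) :
    MulAut.conj (PP r g) • XX K r = XX K r := by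
  have key : ∀ g : Matrix.SpecialLinearGroup (Fin 2) K, g.1 1 0 = 0 → ∀ y ∈ XX K r,
      PP r g * y * (PP r g)⁻¹ ∈ XX K r := by
    intro g hg y hy
    obtain ⟨t, rfl⟩ := mem_XX.1 hy
    have hd := det2 g
    rw [hg, mul_zero, sub_zero] at hd
    have h1 : g * up t = up (g.1 0 0 * g.1 0 0 * t) * g := by
      apply sl_ext_mul
      show g.1 * !![1, t; 0, 1] = !![1, g.1 0 0 * g.1 0 0 * t; 0, 1] * g.1
      ext i j
      fin_cases i <;> fin_cases j <;> simp [Matrix.mul_apply, Fin.sum_univ_two, hg]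
      linear_combination (-(g.1 0 0 * t)) * hd
    rw [← map_mul, h1, map_mul, mul_inv_cancel_right]
    exact mem_XX.2 ⟨_, rfl⟩
  refine conj_smul_eq (key g hg) ?_
  intro y hy
  have h1 := key g⁻¹ (by
    have : (g⁻¹).1 = g.1.adjugate := rfl
    rw [this, Matrix.adjugate_fin_two]
    simp [hg]) y hy
  rwa [map_inv, inv_inv] at h1

/-- the Weyl element -/
def ww : Matrix.SpecialLinearGroup (Fin 2) K := ⟨!![0, -1; 1, 0], by simp [Matrix.det_fin_two]⟩

theorem ww_eq : (ww : Matrix.SpecialLinearGroup (Fin 2) K) = up (-1) * lo 1 * up (-1) := by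
  apply Subtype.ext
  show !![0, -1; 1, 0] = (!![1, -1; 0, 1] * !![1, 0; 1, 1]) * !![1, -1; 0, (1 : K)]
  ext i j
  fin_cases i <;> fin_cases j <;> simp [Matrix.mul_apply, Fin.sum_univ_two]

theorem conj_ww (r : Fin 72) : MulAut.conj (PP r (ww : Matrix.SpecialLinearGroup (Fin 2) K)) • XX K r = XX K (Fin.rev r) := by
  have h1 : ∀ t : K, ww * up t = lo (-t) * ww := by
    intro t
    apply sl_ext_mul
    show !![0, -1; 1, 0] * !![1, t; 0, 1] = !![1, 0; -t, 1] * !![0, -1; 1, (0 : K)]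
    ext i j
    fin_cases i <;> fin_cases j <;> simp [Matrix.mul_apply, Fin.sum_univ_two]
  refine conj_smul_eq ?_ ?_
  · intro y hy
    obtain ⟨t, rfl⟩ := mem_XX.1 hy
    rw [← map_mul, h1, map_mul, mul_inv_cancel_right]
    exact mem_XX'.2 ⟨_, rfl⟩
  · intro y hy
    obtain ⟨t, rfl⟩ := mem_XX'.1 hy
    have h2 := h1 (-t)
    rw [neg_neg] at h2
    rw [mul_assoc, ← map_mul, ← h2, map_mul, inv_mul_cancel_left]
    exact mem_XX.2 ⟨_, rfl⟩

/-- the points of the orbit -/
noncomputable def pt (φ : K →+* K) (r : Fin 72) : Option {t : K // φ t = t} → Subgroup (GL chevE6.Idx K)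
  | none => XX K r
  | some t => MulAut.conj (PP r (up (t : K))) • XX K (Fin.rev r)

theorem XX_ne (r : Fin 72) : XX K r ≠ XX K (Fin.rev r) := by
  intro h
  have h1 : PP r (lo (1 : K)) ∈ XX K r := by
    rw [h]
    exact mem_XX'.2 ⟨1, rfl⟩
  obtain ⟨s, hs⟩ := mem_XX.1 h1
  have h2 : PP r (lo 1 * (up s)⁻¹) = 1 := by rw [map_mul, map_inv, hs, mul_inv_cancel]
  have h3 : lo 1 = up s ∨ lo 1 = -up s := by
    rcases PP_ker r _ h2 with h | h
    · exact Or.inl (mul_inv_eq_one.1 h)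
    · right
      rw [mul_inv_eq_iff_eq_mul] at h
      rw [h, neg_mul, one_mul]
  rcases h3 with h | h
  · have : (1 : K) = 0 := congrFun (congrFun (congrArg Subtype.val h) 1) 0
    exact one_ne_zero this
  · have : (1 : K) = -0 := congrFun (congrFun (congrArg Subtype.val h) 1) 0
    rw [neg_zero] at this
    exact one_ne_zero this

theorem up_add (a b : K) : up a * up b = up (a + b) := by
  apply Subtype.ext
  show !![1, a; 0, 1] * !![1, b; 0, 1] = !![1, a + b; 0, 1]
  ext i j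
  fin_cases i <;> fin_cases j <;> simp [Matrix.mul_apply, Fin.sum_univ_two, add_comm]

theorem up_zero : up (0 : K) = 1 := by
  apply Subtype.ext
  show !![1, (0 : K); 0, 1] = 1
  ext i j
  fin_cases i <;> fin_cases j <;> simp

theorem up_inv (a : K) : (up a)⁻¹ = up (-a) := by
  rw [inv_eq_iff_mul_eq_one, up_add, add_neg_cancel, up_zero]

/-- only the identity of `X_r` normalises `X_{-r}` -/
theorem eq_zero_of_conj (r : Fin 72) {u : K}
    (h : MulAut.conj (PP r (up u)) • XX K (Fin.rev r) = XX K (Fin.rev r)) : u = 0 := by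
  have h1 : PP r (up u) * PP r (lo 1) * (PP r (up u))⁻¹ ∈ XX K (Fin.rev r) := by
    rw [← h]
    exact ⟨PP r (lo 1), mem_XX'.2 ⟨1, rfl⟩, rfl⟩
  obtain ⟨v, hv⟩ := mem_XX'.1 h1
  have h2 : PP r (up u * lo 1 * (up u)⁻¹ * (lo v)⁻¹) = 1 := by
    rw [map_mul, map_mul, map_mul, map_inv, map_inv, hv, mul_inv_cancel]
  have h3 : up u * lo 1 = lo v * up u ∨ up u * lo 1 = -(lo v * up u) := by
    rcases PP_ker r _ h2 with h | h
    · left
      rw [mul_inv_eq_one, mul_inv_eq_iff_eq_mul] at h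
      exact h
    · right
      rw [mul_inv_eq_iff_eq_mul, mul_inv_eq_iff_eq_mul] at h
      rw [h, neg_mul, neg_mul, one_mul]
  have e1 : (up u * lo (1 : K)).1 = !![1 + u, u; 1, 1] := by
    show !![1, u; 0, 1] * !![1, 0; 1, 1] = _
    ext i j
    fin_cases i <;> fin_cases j <;> simp [Matrix.mul_apply, Fin.sum_univ_two]
  have e2 : (lo v * up u).1 = !![1, u; v, v * u + 1] := by
    show !![1, 0; v, 1] * !![1, u; 0, 1] = _
    ext i j
    fin_cases i <;> fin_cases j <;> simp [Matrix.mul_apply, Fin.sum_univ_two]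
  rcases h3 with h | h
  · have h4 := congrArg Subtype.val h
    rw [e1, e2] at h4
    have h5 := congrFun (congrFun h4 0) 0
    simpa using h5
  · have h4 : !![1 + u, u; 1, 1] = -!![1, u; v, v * u + 1] := by
      rw [← e1, ← e2]
      exact congrArg Subtype.val h
    have h5 := congrFun (congrFun h4 0) 0
    have h6 := congrFun (congrFun h4 0) 1
    have h7 := congrFun (congrFun h4 1) 0
    have h8 := congrFun (congrFun h4 1) 1
    simp at h5 h6 h7 h8
    -- `v = -1`, `u = -u`, `2 + u = 0`, `1 = -(v u + 1)`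
    have hv : v = -1 := by linear_combination h7
    rw [hv] at h8
    -- `1 = u - 1`
    have : u = 2 := by linear_combination -h8
    rw [this] at h5
    have h9 : (4 : K) = 0 := by linear_combination h5
    have h10 : (2 : K) = 0 := by
      have : (2 : K) * 2 = 0 := by linear_combination h9
      exact mul_self_eq_zero.1 this
    rw [this, h10]

theorem pt_injective (φ : K →+* K) (r : Fin 72) : Function.Injective (pt φ r) := by
  have key : ∀ t : K, XX K r ≠ MulAut.conj (PP r (up t)) • XX K (Fin.rev r) := by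
    intro t h
    apply XX_ne (K := K) r
    have h1 := conj_upper (K := K) r (g := up (-t)) rfl
    rw [h, smul_smul, ← map_mul, ← map_mul, up_add, neg_add_cancel, up_zero, map_one, map_one,
      one_smul] at h1
    exact h.trans h1.symm
  intro a b hab
  rcases a with _ | a <;> rcases b with _ | b
  · rfl
  · exact absurd hab (key _)
  · exact absurd hab.symm (key _)
  · congr 1
    apply Subtype.ext
    have h1 : MulAut.conj (PP r (up (a : K))) • XX K (Fin.rev r) =
      MulAut.conj (PP r (up (b : K))) • XX K (Fin.rev r) := hab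
    have h2 : MulAut.conj (PP r (up ((a : K) - b))) • XX K (Fin.rev r) = XX K (Fin.rev r) := by
      rw [sub_eq_neg_add, ← up_add, map_mul, map_mul, mul_smul, h1, ← mul_smul, ← map_mul, ← map_mul,
        up_add, neg_add_cancel, up_zero, map_one, map_one, one_smul]
    exact sub_eq_zero.1 (eq_zero_of_conj r h2)

/-- the fixed subfield -/
def kq (φ : K →+* K) : Subfield K := φ.eqLocusField (RingHom.id K)

theorem mem_kq {φ : K →+* K} {t : K} : t ∈ kq φ ↔ φ t = t := Iff.rfl

/-- the root group over the small field -/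
def Rq (φ : K →+* K) (r : Fin 72) : Subgroup (GL chevE6.Idx K) := XX K r ⊓ fix φ

/-- the rank one group over the small field -/
def Lq (φ : K →+* K) (r : Fin 72) : Subgroup (GL chevE6.Idx K) := Rq φ r ⊔ Rq φ (Fin.rev r)

theorem eps_fixed : ∀ r : Fin 72, rho r = r → epsE r = 1 := by decide +kernel

theorem rev_fixed : ∀ r : Fin 72, rho r = r → rho (Fin.rev r) = Fin.rev r := by
  intro r hr
  rw [rho_rev, hr]

theorem mem_Rq {φ : K →+* K} {r : Fin 72} (hr : rho r = r) {g : GL chevE6.Idx K} :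
    g ∈ Rq φ r ↔ ∃ t : K, φ t = t ∧ g = x r.val t := by
  unfold Rq
  rw [Subgroup.mem_inf, mem_X, mem_fix]
  have hs : ∀ t : K, sg φ (x r.val t) = x r.val (φ t) := by
    intro t
    have h1 := sg_x φ r t
    have h2 : symmE6.ε r = 1 := eps_fixed r hr
    rw [h2, Int.cast_one, one_mul, hr] at h1
    exact h1
  constructor
  · rintro ⟨⟨t, rfl⟩, h⟩
    rw [hs] at h
    exact ⟨t, x_injective r.isLt h, rfl⟩
  · rintro ⟨t, ht, rfl⟩
    exact ⟨⟨t, rfl⟩, by rw [hs, ht]⟩

theorem PP_mem_Lq {φ : K →+* K} {r : Fin 72} (hr : rho r = r) (g : Matrix.SpecialLinearGroup (Fin 2) (kq φ)) :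
    PP r (Matrix.SpecialLinearGroup.map (kq φ).subtype g) ∈ Lq φ r := by
  have h1 : Subgroup.closure (Set.range (up (F := kq φ)) ∪ Set.range (lo (F := kq φ))) ≤
      (Lq φ r).comap ((PP r).comp (Matrix.SpecialLinearGroup.map (kq φ).subtype)) := by
    rw [Subgroup.closure_le]
    rintro _ (⟨t, rfl⟩ | ⟨t, rfl⟩)
    · show PP r (Matrix.SpecialLinearGroup.map (kq φ).subtype (up t)) ∈ Lq φ r
      have : Matrix.SpecialLinearGroup.map (kq φ).subtype (up t) = up (t : K) := by
        apply Subtype.ext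
        show (kq φ).subtype.mapMatrix (up t).1 = (up (t : K)).1
        ext i j
        fin_cases i <;> fin_cases j <;> simp [up]
      rw [this, PP_up]
      exact Subgroup.mem_sup_left ((mem_Rq hr).2 ⟨_, t.2, rfl⟩)
    · show PP r (Matrix.SpecialLinearGroup.map (kq φ).subtype (lo t)) ∈ Lq φ r
      have : Matrix.SpecialLinearGroup.map (kq φ).subtype (lo t) = lo (t : K) := by
        apply Subtype.ext
        show (kq φ).subtype.mapMatrix (lo t).1 = (lo (t : K)).1
        ext i j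
        fin_cases i <;> fin_cases j <;> simp [lo]
      rw [this, PP_lo]
      exact Subgroup.mem_sup_right ((mem_Rq (rev_fixed r hr)).2 ⟨_, t.2, rfl⟩)
  exact h1 (SL2Hom.mem_closure_SL2 g)

theorem exists_PP {φ : K →+* K} {r : Fin 72} (hr : rho r = r) {l : GL chevE6.Idx K} (hl : l ∈ Lq φ r) :
    ∃ g : Matrix.SpecialLinearGroup (Fin 2) (kq φ),
      l = PP r (Matrix.SpecialLinearGroup.map (kq φ).subtype g) := by
  have h1 : Lq φ r ≤ ((PP r).comp (Matrix.SpecialLinearGroup.map (kq φ).subtype)).range := by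
    refine sup_le ?_ ?_
    · intro y hy
      obtain ⟨t, ht, rfl⟩ := (mem_Rq hr).1 hy
      refine ⟨up ⟨t, ht⟩, ?_⟩
      show PP r (Matrix.SpecialLinearGroup.map (kq φ).subtype (up ⟨t, ht⟩)) = _
      rw [← PP_up]
      congr 1
      apply Subtype.ext
      show (kq φ).subtype.mapMatrix (up ⟨t, ht⟩).1 = (up (t : K)).1
      ext i j
      fin_cases i <;> fin_cases j <;> simp [up]
    · intro y hy
      obtain ⟨t, ht, rfl⟩ := (mem_Rq (rev_fixed r hr)).1 hy
      refine ⟨lo ⟨t, ht⟩, ?_⟩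
      show PP r (Matrix.SpecialLinearGroup.map (kq φ).subtype (lo ⟨t, ht⟩)) = _
      rw [← PP_lo]
      congr 1
      apply Subtype.ext
      show (kq φ).subtype.mapMatrix (lo ⟨t, ht⟩).1 = (lo (t : K)).1
      ext i j
      fin_cases i <;> fin_cases j <;> simp [lo]
  obtain ⟨g, hg⟩ := h1 hl
  exact ⟨g, hg.symm⟩

theorem pt_of_mem {φ : K →+* K} {r : Fin 72} (hr : rho r = r) {l : GL chevE6.Idx K} (hl : l ∈ Lq φ r) :
    ∃ i, pt φ r i = MulAut.conj l • XX K r := by
  obtain ⟨g, rfl⟩ := exists_PP hr hl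
  set g' : Matrix.SpecialLinearGroup (Fin 2) K := Matrix.SpecialLinearGroup.map (kq φ).subtype g with hg'
  have hent : ∀ i j, g'.1 i j = ((g.1 i j : kq φ) : K) := fun i j => rfl
  by_cases hc : g.1 1 0 = 0
  · refine ⟨none, ?_⟩
    rw [conj_upper r (g := g') (by rw [hent, hc]; rfl)]
    rfl
  · have hc' : g'.1 1 0 ≠ 0 := by
      rw [hent]
      intro h
      exact hc (Subtype.ext h)
    refine ⟨some ⟨((g.1 0 0 / g.1 1 0 : kq φ) : K), (g.1 0 0 / g.1 1 0 : kq φ).2⟩, ?_⟩
    show MulAut.conj (PP r (up ((g.1 0 0 / g.1 1 0 : kq φ) : K))) • XX K (Fin.rev r) = _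
    have hdiv : ((g.1 0 0 / g.1 1 0 : kq φ) : K) = g'.1 0 0 / g'.1 1 0 := rfl
    rw [hdiv]
    have hd := det2 g'
    let v : Matrix.SpecialLinearGroup (Fin 2) K :=
      ⟨!![g'.1 1 0, g'.1 1 1; 0, (g'.1 1 0)⁻¹], by simp [Matrix.det_fin_two, hc']⟩
    have h1 : g' = up (g'.1 0 0 / g'.1 1 0) * ww * v := by
      apply Subtype.ext
      show g'.1 = (!![1, g'.1 0 0 / g'.1 1 0; 0, 1] * !![0, -1; 1, 0]) *
        !![g'.1 1 0, g'.1 1 1; 0, (g'.1 1 0)⁻¹]
      ext i j
      fin_cases i <;> fin_cases j <;> simp [Matrix.mul_apply, Fin.sum_univ_two, hc']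
      field_simp
      linear_combination -hd
    conv_rhs => rw [h1, map_mul, map_mul, map_mul, map_mul, mul_smul, mul_smul]
    rw [conj_upper r (g := v) rfl, conj_ww]

theorem exists_of_pt {φ : K →+* K} {r : Fin 72} (hr : rho r = r) (i : Option {t : K // φ t = t}) :
    ∃ l ∈ Lq φ r, MulAut.conj l • XX K r = pt φ r i := by
  rcases i with _ | t
  · exact ⟨1, one_mem _, by rw [map_one, one_smul]; rfl⟩
  · refine ⟨PP r (up (t : K)) * PP r ww, ?_, ?_⟩
    · refine mul_mem ?_ ?_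
      · rw [PP_up]
        exact Subgroup.mem_sup_left ((mem_Rq hr).2 ⟨_, t.2, rfl⟩)
      · rw [ww_eq, map_mul, map_mul, PP_up, PP_lo]
        have h1 : φ (-1) = -1 := by rw [map_neg, map_one]
        exact mul_mem (mul_mem (Subgroup.mem_sup_left ((mem_Rq hr).2 ⟨_, h1, rfl⟩))
          (Subgroup.mem_sup_right ((mem_Rq (rev_fixed r hr)).2 ⟨_, map_one φ, rfl⟩)))
          (Subgroup.mem_sup_left ((mem_Rq hr).2 ⟨_, h1, rfl⟩))
    · rw [map_mul, mul_smul, conj_ww]
      rfl

/-- **the `L`-step** -/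
theorem step_L {φ : K →+* K} {r : Fin 72} (hr : rho r = r) {A : Subgroup (GL chevE6.Idx K)}
    (hX : ∀ a ∈ A, MulAut.conj a • XX K r = XX K r) (hL : ∀ a ∈ A, MulAut.conj a • Lq φ r = Lq φ r) :
    Nat.card (Option {t : K // φ t = t}) ∣ A.relIndex (A ⊔ Lq φ r) :=
  dvd_relIndex_sup hX hL (pt φ r) (pt_injective φ r) (fun _ hb => pt_of_mem hr hb)
    (fun i => exists_of_pt hr i)

/-- the rank one groups are not abelian -/
theorem exists_ne_comm (φ : K →+* K) {r : Fin 72} (hr : rho r = r) :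
    ∃ a ∈ Lq φ r, ∃ b ∈ Lq φ r, a * b ≠ b * a := by
  refine ⟨x r.val 1, Subgroup.mem_sup_left ((mem_Rq hr).2 ⟨_, map_one φ, rfl⟩), x (Fin.rev r).val 1,
    Subgroup.mem_sup_right ((mem_Rq (rev_fixed r hr)).2 ⟨_, map_one φ, rfl⟩), ?_⟩
  intro h
  rw [← PP_up, ← PP_lo, ← map_mul, ← map_mul] at h
  have h2 : PP r (up (1 : K) * lo 1 * (lo 1 * up 1)⁻¹) = 1 := by rw [map_mul, map_inv, h, mul_inv_cancel]
  have e1 : (up (1 : K) * lo (1 : K)).1 = !![1 + 1, 1; 1, 1] := by
    show !![1, 1; 0, 1] * !![1, 0; 1, 1] = _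
    ext i j
    fin_cases i <;> fin_cases j <;> simp [Matrix.mul_apply, Fin.sum_univ_two]
  have e2 : (lo (1 : K) * up (1 : K)).1 = !![1, 1; 1, 1 + 1] := by
    show !![1, 0; 1, 1] * !![1, 1; 0, 1] = _
    ext i j
    fin_cases i <;> fin_cases j <;> simp [Matrix.mul_apply, Fin.sum_univ_two]
  rcases PP_ker r _ h2 with h3 | h3
  · rw [mul_inv_eq_one] at h3
    have h4 := congrArg Subtype.val h3
    rw [e1, e2] at h4
    have h5 := congrFun (congrFun h4 0) 0
    simp at h5
  · rw [mul_inv_eq_iff_eq_mul, neg_mul, one_mul] at h3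
    have h4 : !![1 + 1, 1; 1, 1] = -!![1, 1; 1, (1 : K) + 1] := by
      rw [← e1, ← e2]
      exact congrArg Subtype.val h3
    have h5 := congrFun (congrFun h4 0) 0
    have h6 := congrFun (congrFun h4 0) 1
    simp at h5 h6
    apply one_ne_zero (α := K)
    linear_combination h5 - h6

end Cfsg.Agent.H686.AO
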