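import Mathlib
import Cfsg.Agent.H686.AO.SLq
import Cfsg.Agent.ChevalleyStructure.TwE6BN
import Cfsg.Agent.S1102

/-!
# A subgroup of `²E₆(q)` containing a Sylow 2-subgroup

`H0 = (T' L₁ L₂ L₃ L₄).⟨n₂, n_γ, n_ab⟩`
-/

set_option autoImplicit false
set_option linter.unusedSectionVars false

namespace Cfsg.Agent.H686.AO

open Subgroup Cfsg Cfsg.Lie Cfsg.Agent.ChevalleyStructure Cfsg.Agent.ChevalleyStructure.Elts
open Cfsg.Agent.ChevalleyStructure.SL2Hom (up lo)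
open Cfsg.Agent.ChevalleyStructure.TwE6Basic Cfsg.Agent.ChevalleyStructure.GraphSymm
open Cfsg.Agent.ChevalleyStructure.TwE6BN (Acts acts_n acts_H)
open scoped Pointwise Matrix

universe u

section General

variable {G : Type*} [Group G]

/-- the stabiliser of a subgroup under conjugation -/
def St (X : Subgroup G) : Subgroup G where
  carrier := {g | MulAut.conj g • X = X}
  one_mem' := by simp
  mul_mem' := by
    intro a b ha hb
    simp only [Set.mem_ofPred_eq, map_mul, mul_smul] at *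
    rw [hb, ha]
  inv_mem' := by
    intro a ha
    simp only [Set.mem_ofPred_eq, map_inv, inv_smul_eq_iff] at *
    exact ha.symm

theorem mem_St {X : Subgroup G} {g : G} : g ∈ St X ↔ MulAut.conj g • X = X := Iff.rfl

theorem le_St_self (X : Subgroup G) : X ≤ St X := by
  intro g hg
  refine mem_St.2 (conj_smul_eq (fun x hx => ?_) (fun x hx => ?_))
  · exact mul_mem (mul_mem hg hx) (inv_mem hg)
  · exact mul_mem (mul_mem (inv_mem hg) hx) hg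

theorem le_St_of_le_centralizer {A X : Subgroup G} (h : A ≤ centralizer (X : Set G)) : A ≤ St X := by
  intro g hg
  have h1 := mem_centralizer_iff.1 (h hg)
  refine mem_St.2 (conj_smul_eq (fun x hx => ?_) (fun x hx => ?_))
  · rw [← h1 x hx, mul_inv_cancel_right]; exact hx
  · rw [mul_assoc, h1 x hx, inv_mul_cancel_left]; exact hx

theorem St_inf_le_sup (X Y : Subgroup G) : St X ⊓ St Y ≤ St (X ⊔ Y) := by
  rintro g ⟨h1, h2⟩
  rw [mem_St, smul_sup, mem_St.1 h1, mem_St.1 h2]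

theorem swap_mem_St_sup {X Y : Subgroup G} {g : G} (h1 : MulAut.conj g • X = Y) (h2 : MulAut.conj g • Y = X) :
    g ∈ St (X ⊔ Y) := by
  rw [mem_St, smul_sup, h1, h2, sup_comm]

theorem sup_le_centralizer {A B C : Subgroup G} (h1 : A ≤ centralizer (C : Set G))
    (h2 : A ≤ centralizer (B : Set G)) : A ≤ centralizer ((B ⊔ C : Subgroup G) : Set G) := by
  rw [le_centralizer_iff] at h1 h2 ⊢
  exact sup_le h2 h1

end General

section Mono

variable {K : Type u} [Field K] {φ : K →+* K}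

/-- a `σ`-fixed monomial element over `w` -/
def Mo (φ : K →+* K) (g : GL chevE6.Idx K) (w : Equiv.Perm (Fin 72)) : Prop := g ∈ fix φ ∧ Acts g w

theorem Mo.mul {g h : GL chevE6.Idx K} {v w : Equiv.Perm (Fin 72)} (hg : Mo φ g v) (hh : Mo φ h w) :
    Mo φ (g * h) (v * w) := ⟨mul_mem hg.1 hh.1, hg.2.mul hh.2⟩

theorem Mo.inv {g : GL chevE6.Idx K} {v : Equiv.Perm (Fin 72)} (hg : Mo φ g v) :
    Mo φ g⁻¹ v⁻¹ := ⟨inv_mem hg.1, hg.2.inv⟩

theorem Mo.conj_XX {g : GL chevE6.Idx K} {w : Equiv.Perm (Fin 72)} (hg : Mo φ g w) (r : Fin 72) :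
    MulAut.conj g • XX K r = XX K (w r) := by
  refine conj_smul_eq (fun x hx => (hg.2.1 r x).1 hx) (fun y hy => (hg.2.1 r _).2 ?_)
  have e : g * (g⁻¹ * y * g) * g⁻¹ = y := by group
  rw [e]
  exact hy

theorem conj_fix {g : GL chevE6.Idx K} (hg : g ∈ fix φ) : MulAut.conj g • fix φ = fix φ :=
  mem_St.1 (le_St_self _ hg)

theorem Mo.conj_Rq {g : GL chevE6.Idx K} {w : Equiv.Perm (Fin 72)} (hg : Mo φ g w) (r : Fin 72) :
    MulAut.conj g • Rq φ r = Rq φ (w r) := by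
  unfold Rq
  rw [smul_inf, hg.conj_XX, conj_fix hg.1]

theorem Mo.conj_Lq {g : GL chevE6.Idx K} {w : Equiv.Perm (Fin 72)} (hg : Mo φ g w) (r : Fin 72) :
    MulAut.conj g • Lq φ r = Lq φ (w r) := by
  unfold Lq
  rw [smul_sup, hg.conj_Rq, hg.conj_Rq, hg.2.2.2]

/-! ### commutation -/

/-- the rank one group over the large field -/
def LL (K : Type u) [Field K] (r : Fin 72) : Subgroup (GL chevE6.Idx K) := XX K r ⊔ XX K (Fin.rev r)

theorem Lq_le_LL (φ : K →+* K) (r : Fin 72) : Lq φ r ≤ LL K r := sup_le_sup inf_le_left inf_le_left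

/-- orthogonal roots -/
def Ort (r s : Fin 72) : Prop := s.val ≠ r.val ∧ s.val ≠ chevE6.neg r.val ∧ chevE6.commTerms r.val s.val = []

instance (r s : Fin 72) : Decidable (Ort r s) := by unfold Ort; infer_instance

theorem XX_comm {r s : Fin 72} (h : Ort r s) : XX K r ≤ centralizer (XX K s : Set (GL chevE6.Idx K)) := by
  intro g hg
  rw [mem_centralizer_iff]
  intro y hy
  obtain ⟨t, rfl⟩ := mem_X.1 hg
  obtain ⟨u, rfl⟩ := mem_X.1 hy
  exact comm_of_commTerms r.isLt s.isLt h.1 h.2.1 h.2.2 t u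

/-- totally orthogonal roots -/
def Orth (r s : Fin 72) : Prop := Ort r s ∧ Ort r (Fin.rev s) ∧ Ort (Fin.rev r) s ∧ Ort (Fin.rev r) (Fin.rev s)

instance (r s : Fin 72) : Decidable (Orth r s) := by unfold Orth; infer_instance

theorem LL_comm {r s : Fin 72} (h : Orth r s) : LL K r ≤ centralizer (LL K s : Set (GL chevE6.Idx K)) :=
  sup_le (sup_le_centralizer (XX_comm h.2.1) (XX_comm h.1))
    (sup_le_centralizer (XX_comm h.2.2.2) (XX_comm h.2.2.1))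

theorem Lq_comm {r s : Fin 72} (h : Orth r s) : Lq φ r ≤ centralizer (Lq φ s : Set (GL chevE6.Idx K)) :=
  (Lq_le_LL φ r).trans ((LL_comm h).trans (centralizer_le (Lq_le_LL φ s)))

theorem Lq_le_St_XX {r s : Fin 72} (h : Orth r s) : Lq φ r ≤ St (XX K s) :=
  le_St_of_le_centralizer ((Lq_le_LL φ r).trans ((LL_comm h).trans
    (centralizer_le (le_sup_left : XX K s ≤ LL K s))))

theorem Lq_le_St_Lq {r s : Fin 72} (h : Orth r s) : Lq φ r ≤ St (Lq φ s) :=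
  le_St_of_le_centralizer (Lq_comm h)

theorem ne_of_noncomm {r : Fin 72} (hr : rho r = r) {X Y : Subgroup (GL chevE6.Idx K)} (h1 : Lq φ r ≤ X)
    (h2 : Y ≤ centralizer (Lq φ r : Set (GL chevE6.Idx K))) : X ≠ Y := by
  rintro rfl
  obtain ⟨a, ha, b, hb, hab⟩ := exists_ne_comm φ hr
  exact hab (mem_centralizer_iff.1 (h2 (h1 hb)) a ha)

end Mono

/-! ### the four roots -/

/-- the four orthogonal fixed roots -/
def rt : Fin 4 → Fin 72 := ![39, 44, 60, 71]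

theorem rt_fixed : ∀ i : Fin 4, rho (rt i) = rt i := by decide +kernel

theorem rt_orth : ∀ i j : Fin 4, i ≠ j → Orth (rt i) (rt j) := by decide +kernel

/-- the permutation of `n_γ` -/
def wg : Equiv.Perm (Fin 72) := (wP 0 * wP 1) * wP 2 * (wP 0 * wP 1)⁻¹

/-- the permutation of `n_b` -/
def wb : Equiv.Perm (Fin 72) := wP 0 * wP 1 * (wP 0)⁻¹

/-- the permutation of `n_a` -/
def wa : Equiv.Perm (Fin 72) := (wP 3 * wP 2) * wb * (wP 3 * wP 2)⁻¹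

theorem act2 : wP 2 (rt 0) = rt 1 ∧ wP 2 (rt 1) = rt 0 ∧ wP 2 (rt 2) = rt 2 ∧ wP 2 (rt 3) = rt 3 := by
  decide +kernel

theorem actg : wg (rt 0) = rt 0 ∧ wg (rt 1) = rt 1 ∧ wg (rt 2) = rt 3 ∧ wg (rt 3) = rt 2 := by
  decide +kernel

theorem actab : (wa * wb) (rt 0) = rt 2 ∧ (wa * wb) (rt 1) = rt 3 ∧ (wa * wb) (rt 2) = rt 0 ∧
    (wa * wb) (rt 3) = rt 1 := by
  decide +kernel

theorem act3 : wP 3 (rt 1) = rt 2 := by decide +kernel

section Chain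

variable {K : Type u} [Field K] (φ : K →+* K) {q : ℕ}

/-- `n_γ` -/
noncomputable def ng (K : Type u) [Field K] : GL chevE6.Idx K := (n 0 * n 1) * n 2 * (n 0 * n 1)⁻¹

/-- `n_b` -/
noncomputable def nb (K : Type u) [Field K] : GL chevE6.Idx K := n 0 * n 1 * (n 0)⁻¹

/-- `n_a` -/
noncomputable def na (K : Type u) [Field K] : GL chevE6.Idx K := (n 3 * n 2) * nb K * (n 3 * n 2)⁻¹

/-- the torus -/
def TT (K : Type u) [Field K] (q : ℕ) : Subgroup (GL chevE6.Idx K) := chevE6.diagonalSubgroup K ⊓ twistedE6 K q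

/-- the torus and the four groups -/
noncomputable def KK (q : ℕ) : ℕ → Subgroup (GL chevE6.Idx K)
  | 0 => TT K q
  | 1 => TT K q ⊔ Lq φ (rt 0)
  | 2 => TT K q ⊔ Lq φ (rt 0) ⊔ Lq φ (rt 1)
  | 3 => TT K q ⊔ Lq φ (rt 0) ⊔ Lq φ (rt 1) ⊔ Lq φ (rt 2)
  | 4 => TT K q ⊔ Lq φ (rt 0) ⊔ Lq φ (rt 1) ⊔ Lq φ (rt 2) ⊔ Lq φ (rt 3)
  | 5 => TT K q ⊔ Lq φ (rt 0) ⊔ Lq φ (rt 1) ⊔ Lq φ (rt 2) ⊔ Lq φ (rt 3) ⊔ zpowers (n 2)
  | 6 => TT K q ⊔ Lq φ (rt 0) ⊔ Lq φ (rt 1) ⊔ Lq φ (rt 2) ⊔ Lq φ (rt 3) ⊔ zpowers (n 2) ⊔ zpowers (ng K)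
  | _ => TT K q ⊔ Lq φ (rt 0) ⊔ Lq φ (rt 1) ⊔ Lq φ (rt 2) ⊔ Lq φ (rt 3) ⊔ zpowers (n 2) ⊔ zpowers (ng K) ⊔
    zpowers (na K * nb K)

/-- the subgroup -/
noncomputable def H0 (q : ℕ) : Subgroup (GL chevE6.Idx K) := KK φ q 7

section Facts

variable {φ} (hφ : ∀ t, φ t = t ^ q) (hqq : ∀ t : K, (t ^ q) ^ q = t)

include hφ hqq

theorem mo_n (i : Fin 4) : Mo φ (n i) (wP i) :=
  ⟨twisted_le_fix φ hφ hqq (TwE6BN.n_mem_G φ hφ i), acts_n i⟩

theorem mo_TT {g : GL chevE6.Idx K} (hg : g ∈ TT K q) : Mo φ g 1 :=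
  ⟨twisted_le_fix φ hφ hqq hg.2, acts_H hg.1⟩

theorem mo_ng : Mo φ (ng K) wg :=
  (((mo_n hφ hqq 0).mul (mo_n hφ hqq 1)).mul (mo_n hφ hqq 2)).mul ((mo_n hφ hqq 0).mul (mo_n hφ hqq 1)).inv

theorem mo_nb : Mo φ (nb K) wb :=
  ((mo_n hφ hqq 0).mul (mo_n hφ hqq 1)).mul (mo_n hφ hqq 0).inv

theorem mo_na : Mo φ (na K) wa :=
  (((mo_n hφ hqq 3).mul (mo_n hφ hqq 2)).mul (mo_nb hφ hqq)).mul ((mo_n hφ hqq 3).mul (mo_n hφ hqq 2)).inv

theorem mo_nab : Mo φ (na K * nb K) (wa * wb) := (mo_na hφ hqq).mul (mo_nb hφ hqq)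

theorem TT_le_St_XX (r : Fin 72) : TT K q ≤ St (XX K r) := fun _ hg => (mo_TT hφ hqq hg).conj_XX r

theorem TT_le_St_Lq (r : Fin 72) : TT K q ≤ St (Lq φ r) := fun _ hg => (mo_TT hφ hqq hg).conj_Lq r

theorem K4_le_St (i : Fin 4) : KK φ q 4 ≤ St (Lq φ (rt i)) := by
  have h : ∀ j, Lq φ (rt j) ≤ St (Lq φ (rt i)) := by
    intro j
    by_cases hj : j = i
    · rw [hj]; exact le_St_self _
    · exact Lq_le_St_Lq (rt_orth j i hj)
  exact sup_le (sup_le (sup_le (sup_le (TT_le_St_Lq hφ hqq _) (h 0)) (h 1)) (h 2)) (h 3)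

theorem step1 : Nat.card (Option {t : K // φ t = t}) ∣ (KK φ q 0).relIndex (KK φ q 1) :=
  step_L (rt_fixed 0) (TT_le_St_XX hφ hqq _) (TT_le_St_Lq hφ hqq _)

theorem step2 : Nat.card (Option {t : K // φ t = t}) ∣ (KK φ q 1).relIndex (KK φ q 2) := by
  refine step_L (rt_fixed 1) (fun a ha => ?_) (fun a ha => ?_)
  · exact (sup_le (TT_le_St_XX hφ hqq _) (Lq_le_St_XX (rt_orth 0 1 (by decide))) :
      KK φ q 1 ≤ St (XX K (rt 1))) ha
  · exact (sup_le (TT_le_St_Lq hφ hqq _) (Lq_le_St_Lq (rt_orth 0 1 (by decide))) :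
      KK φ q 1 ≤ St (Lq φ (rt 1))) ha

theorem step3 : Nat.card (Option {t : K // φ t = t}) ∣ (KK φ q 2).relIndex (KK φ q 3) := by
  refine step_L (rt_fixed 2) (fun a ha => ?_) (fun a ha => ?_)
  · exact (sup_le (sup_le (TT_le_St_XX hφ hqq _) (Lq_le_St_XX (rt_orth 0 2 (by decide))))
      (Lq_le_St_XX (rt_orth 1 2 (by decide))) : KK φ q 2 ≤ St (XX K (rt 2))) ha
  · exact (sup_le (sup_le (TT_le_St_Lq hφ hqq _) (Lq_le_St_Lq (rt_orth 0 2 (by decide))))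
      (Lq_le_St_Lq (rt_orth 1 2 (by decide))) : KK φ q 2 ≤ St (Lq φ (rt 2))) ha

theorem step4 : Nat.card (Option {t : K // φ t = t}) ∣ (KK φ q 3).relIndex (KK φ q 4) := by
  refine step_L (rt_fixed 3) (fun a ha => ?_) (fun a ha => ?_)
  · exact (sup_le (sup_le (sup_le (TT_le_St_XX hφ hqq _) (Lq_le_St_XX (rt_orth 0 3 (by decide))))
      (Lq_le_St_XX (rt_orth 1 3 (by decide)))) (Lq_le_St_XX (rt_orth 2 3 (by decide))) :
      KK φ q 3 ≤ St (XX K (rt 3))) ha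
  · exact (sup_le (sup_le (sup_le (TT_le_St_Lq hφ hqq _) (Lq_le_St_Lq (rt_orth 0 3 (by decide))))
      (Lq_le_St_Lq (rt_orth 1 3 (by decide)))) (Lq_le_St_Lq (rt_orth 2 3 (by decide))) :
      KK φ q 3 ≤ St (Lq φ (rt 3))) ha

theorem c2 (r : Fin 72) : MulAut.conj (n (K := K) 2) • Lq φ r = Lq φ (wP 2 r) := (mo_n hφ hqq 2).conj_Lq r

theorem step5 : 2 ∣ (KK φ q 4).relIndex (KK φ q 5) := by
  refine two_dvd_relIndex_sup (X := Lq φ (rt 0)) (Y := Lq φ (rt 1)) (K4_le_St hφ hqq 0) (K4_le_St hφ hqq 1) ?_ ?_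
    ?_
  · rw [c2 hφ hqq, act2.1]
  · rw [c2 hφ hqq, act2.2.1]
  · exact ne_of_noncomm (rt_fixed 0) le_rfl (Lq_comm (rt_orth 1 0 (by decide)))

theorem step6 : 2 ∣ (KK φ q 5).relIndex (KK φ q 6) := by
  have h2 : KK φ q 5 ≤ St (Lq φ (rt 2)) := by
    refine sup_le (K4_le_St hφ hqq 2) ?_
    rw [zpowers_le, mem_St, c2 hφ hqq, act2.2.2.1]
  have h3 : KK φ q 5 ≤ St (Lq φ (rt 3)) := by
    refine sup_le (K4_le_St hφ hqq 3) ?_
    rw [zpowers_le, mem_St, c2 hφ hqq, act2.2.2.2]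
  refine two_dvd_relIndex_sup (X := Lq φ (rt 2)) (Y := Lq φ (rt 3)) h2 h3 ?_ ?_ ?_
  · rw [(mo_ng hφ hqq).conj_Lq, actg.2.2.1]
  · rw [(mo_ng hφ hqq).conj_Lq, actg.2.2.2]
  · exact ne_of_noncomm (rt_fixed 2) le_rfl (Lq_comm (rt_orth 3 2 (by decide)))

theorem step7 : 2 ∣ (KK φ q 6).relIndex (KK φ q 7) := by
  have h1 : KK φ q 6 ≤ St (Lq φ (rt 0) ⊔ Lq φ (rt 1)) := by
    refine sup_le (sup_le ?_ ?_) ?_
    · exact (le_inf (K4_le_St hφ hqq 0) (K4_le_St hφ hqq 1)).trans (St_inf_le_sup _ _)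
    · rw [zpowers_le]
      refine swap_mem_St_sup ?_ ?_
      · rw [c2 hφ hqq, act2.1]
      · rw [c2 hφ hqq, act2.2.1]
    · rw [zpowers_le]
      refine St_inf_le_sup _ _ ⟨?_, ?_⟩
      · show _ = _
        rw [(mo_ng hφ hqq).conj_Lq, actg.1]
      · show _ = _
        rw [(mo_ng hφ hqq).conj_Lq, actg.2.1]
  have h2 : KK φ q 6 ≤ St (Lq φ (rt 2) ⊔ Lq φ (rt 3)) := by
    refine sup_le (sup_le ?_ ?_) ?_
    · exact (le_inf (K4_le_St hφ hqq 2) (K4_le_St hφ hqq 3)).trans (St_inf_le_sup _ _)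
    · rw [zpowers_le]
      refine St_inf_le_sup _ _ ⟨?_, ?_⟩
      · show _ = _
        rw [c2 hφ hqq, act2.2.2.1]
      · show _ = _
        rw [c2 hφ hqq, act2.2.2.2]
    · rw [zpowers_le]
      refine swap_mem_St_sup ?_ ?_
      · rw [(mo_ng hφ hqq).conj_Lq, actg.2.2.1]
      · rw [(mo_ng hφ hqq).conj_Lq, actg.2.2.2]
  refine two_dvd_relIndex_sup h1 h2 ?_ ?_ ?_
  · rw [smul_sup, (mo_nab hφ hqq).conj_Lq, (mo_nab hφ hqq).conj_Lq, actab.1, actab.2.1]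
  · rw [smul_sup, (mo_nab hφ hqq).conj_Lq, (mo_nab hφ hqq).conj_Lq, actab.2.2.1, actab.2.2.2]
  · exact ne_of_noncomm (rt_fixed 0) le_sup_left
      (sup_le (Lq_comm (rt_orth 2 0 (by decide))) (Lq_comm (rt_orth 3 0 (by decide))))

/-- **the order of `H0`** -/
theorem card_H0_dvd : 8 * Nat.card (Option {t : K // φ t = t}) ^ 4 * Nat.card (TT K q) ∣ Nat.card (H0 φ q) := by
  have h01 : KK φ q 0 ≤ KK φ q 1 := le_sup_left
  have h12 : KK φ q 1 ≤ KK φ q 2 := le_sup_left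
  have h23 : KK φ q 2 ≤ KK φ q 3 := le_sup_left
  have h34 : KK φ q 3 ≤ KK φ q 4 := le_sup_left
  have h45 : KK φ q 4 ≤ KK φ q 5 := le_sup_left
  have h56 : KK φ q 5 ≤ KK φ q 6 := le_sup_left
  have h67 : KK φ q 6 ≤ KK φ q 7 := le_sup_left
  have h02 := h01.trans h12
  have h03 := h02.trans h23
  have h04 := h03.trans h34
  have h05 := h04.trans h45
  have h06 := h05.trans h56
  have h07 := h06.trans h67
  have e : (KK φ q 0).relIndex (KK φ q 7) * Nat.card (TT K q) = Nat.card (H0 φ q) := by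
    have h := relIndex_mul_relIndex ⊥ (KK φ q 0) (KK φ q 7) bot_le h07
    rw [relIndex_bot_left, relIndex_bot_left, mul_comm] at h
    exact h
  rw [← e]
  refine mul_dvd_mul_right ?_ _
  rw [← relIndex_mul_relIndex _ _ _ h06 h67, ← relIndex_mul_relIndex _ _ _ h05 h56,
    ← relIndex_mul_relIndex _ _ _ h04 h45, ← relIndex_mul_relIndex _ _ _ h03 h34,
    ← relIndex_mul_relIndex _ _ _ h02 h23, ← relIndex_mul_relIndex _ _ _ h01 h12]
  have h := mul_dvd_mul (mul_dvd_mul (mul_dvd_mul (mul_dvd_mul (mul_dvd_mul (mul_dvd_mul (step1 hφ hqq)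
    (step2 hφ hqq)) (step3 hφ hqq)) (step4 hφ hqq)) (step5 hφ hqq)) (step6 hφ hqq)) (step7 hφ hqq)
  refine Dvd.dvd.trans (dvd_of_eq ?_) h
  ring

theorem n_mem (i : Fin 4) : n (K := K) i ∈ twistedE6 K q := TwE6BN.n_mem_G φ hφ i

theorem Lq_le_of_conj {g : GL chevE6.Idx K} {w : Equiv.Perm (Fin 72)} (hg : Mo φ g w)
    (hgt : g ∈ twistedE6 K q) {r : Fin 72} (h : Lq φ r ≤ twistedE6 K q) : Lq φ (w r) ≤ twistedE6 K q := by
  rw [← hg.conj_Lq]
  rintro _ ⟨y, hy, rfl⟩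
  exact mul_mem (mul_mem hgt (h hy)) (inv_mem hgt)

theorem L0_le : Lq φ (rt 0) ≤ twistedE6 K q := by
  refine sup_le ?_ ?_
  · intro y hy
    obtain ⟨t, ht, rfl⟩ := (mem_Rq (rt_fixed 0)).1 hy
    rw [hφ] at ht
    exact single_mem (r := 39) ht (by simp)
  · intro y hy
    obtain ⟨t, ht, rfl⟩ := (mem_Rq (rev_fixed _ (rt_fixed 0))).1 hy
    rw [hφ] at ht
    exact single_mem (r := 32) ht (by simp)

theorem ng_mem : ng K ∈ twistedE6 K q :=
  mul_mem (mul_mem (mul_mem (n_mem hφ hqq 0) (n_mem hφ hqq 1)) (n_mem hφ hqq 2))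
    (inv_mem (mul_mem (n_mem hφ hqq 0) (n_mem hφ hqq 1)))

theorem nb_mem : nb K ∈ twistedE6 K q :=
  mul_mem (mul_mem (n_mem hφ hqq 0) (n_mem hφ hqq 1)) (inv_mem (n_mem hφ hqq 0))

theorem na_mem : na K ∈ twistedE6 K q :=
  mul_mem (mul_mem (mul_mem (n_mem hφ hqq 3) (n_mem hφ hqq 2)) (nb_mem hφ hqq))
    (inv_mem (mul_mem (n_mem hφ hqq 3) (n_mem hφ hqq 2)))

theorem L1_le : Lq φ (rt 1) ≤ twistedE6 K q := by
  have h := Lq_le_of_conj hφ hqq (mo_n hφ hqq 2) (n_mem hφ hqq 2) (L0_le hφ hqq)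
  rwa [act2.1] at h

theorem L2_le : Lq φ (rt 2) ≤ twistedE6 K q := by
  have h := Lq_le_of_conj hφ hqq (mo_n hφ hqq 3) (n_mem hφ hqq 3) (L1_le hφ hqq)
  rwa [act3] at h

theorem L3_le : Lq φ (rt 3) ≤ twistedE6 K q := by
  have h := Lq_le_of_conj hφ hqq (mo_ng hφ hqq) (ng_mem hφ hqq) (L2_le hφ hqq)
  rwa [actg.2.2.1] at h

/-- `H0` lies in the twisted group -/
theorem H0_le : H0 φ q ≤ twistedE6 K q := by
  refine sup_le (sup_le (sup_le (sup_le (sup_le (sup_le (sup_le inf_le_right ?_) ?_) ?_) ?_) ?_) ?_) ?_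
  · exact L0_le hφ hqq
  · exact L1_le hφ hqq
  · exact L2_le hφ hqq
  · exact L3_le hφ hqq
  · rw [zpowers_le]; exact n_mem hφ hqq 2
  · rw [zpowers_le]; exact ng_mem hφ hqq
  · rw [zpowers_le]; exact mul_mem (na_mem hφ hqq) (nb_mem hφ hqq)

end Facts

end Chain

end Cfsg.Agent.H686.AO
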