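import Mathlib
import Cfsg.Agent.H686.AO.HZero
import Cfsg.Agent.H166.TwDiag

/-!
# `H0` commutes with the diagonal automorphisms `r ↦ c ^ (a₁(r) - a₆(r))`
-/

set_option autoImplicit false
set_option linter.unusedSectionVars false

namespace Cfsg.Agent.H686.AO

open Subgroup Cfsg Cfsg.Lie Cfsg.Agent.ChevalleyStructure Cfsg.Agent.ChevalleyStructure.Elts
open Cfsg.Agent.ChevalleyStructure.TwE6Basic Cfsg.Agent.ChevalleyStructure.GraphSymm
open Cfsg.Agent.H70.ChevDiag Cfsg.Agent.H70.RootCoeffTab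
open scoped Pointwise Matrix

universe u

variable {K : Type u} [Field K] (φ : K →+* K) {q : ℕ}

/-- the coefficients of the roots -/
def mE (r i : ℕ) : ℤ := (dig ME6 6 r i : ℤ) - 8

theorem rootCoeff_mE : RootCoeff chevE6 mE :=
  rootCoeff_of_chk (M := ME6) (by decide +kernel) (by decide +kernel) (by decide +kernel)

/-- the character `r ↦ c ^ (a₁(r) - a₆(r))` -/
def ch (c : Kˣ) : ℕ → Kˣ := chi 6 mE ![c, 1, 1, 1, 1, c⁻¹]

theorem ch_mul (c : Kˣ) : IsMul chevE6 (ch c) := isMul_chi hE6 rootCoeff_mE _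

theorem ch_apply (c : Kˣ) (r : ℕ) : ch c r = c ^ (mE r 0 - mE r 5) := by
  unfold ch chi
  rw [Fin.prod_univ_six]
  simp [sub_eq_add_neg, zpow_add]

/-- the roots with trivial character value -/
def One (χ : ℕ → Kˣ) : Prop := ∀ r ∈ [39, 44, 60, 71, 63, 46, 42, 37], χ r = 1

theorem mE_tab : ∀ r ∈ [39, 44, 60, 71, 63, 46, 42, 37], mE r 0 - mE r 5 = 0 := by decide +kernel

theorem ch_one (c : Kˣ) : One (ch c) := by
  intro r hr
  rw [ch_apply, mE_tab r hr, zpow_zero]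

/-- the centraliser of the diagonal element -/
abbrev CC (χ : ℕ → Kˣ) : Subgroup (GL chevE6.Idx K) := centralizer {dG chevE6 χ}

theorem mem_CC {χ : ℕ → Kˣ} {g : GL chevE6.Idx K} : g ∈ CC χ ↔ dG chevE6 χ * g = g * dG chevE6 χ :=
  mem_centralizer_singleton_iff.trans eq_comm

variable {χ : ℕ → Kˣ} (hM : IsMul chevE6 χ)

include hM

theorem x_mem_CC {r : ℕ} (h : χ r = 1) (t : K) : x r t ∈ CC χ := by
  rw [mem_CC, ← mul_inv_eq_iff_eq_mul]
  have := dG_conj hE6 hM r t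
  rw [h, Units.val_one, one_mul] at this
  exact this

theorem XX_le_CC {r : Fin 72} (h : χ r.val = 1) : XX K r ≤ CC χ := by
  intro g hg
  obtain ⟨t, rfl⟩ := mem_X.1 hg
  exact x_mem_CC hM h t

theorem rev_one {r : Fin 72} (h : χ r.val = 1) : χ (Fin.rev r).val = 1 := by
  rw [← neg_eq, (hM r.val r.isLt).neg, h, inv_one]

theorem LL_le_CC {r : Fin 72} (h : χ r.val = 1) : LL K r ≤ CC χ :=
  sup_le (XX_le_CC hM h) (XX_le_CC hM (rev_one hM h))

theorem nE_mem_LL (r : Fin 72) : nE (K := K) r.val ∈ LL K r := by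
  have h1 : ∀ t : K, x r.val t ∈ LL K r := fun t => mem_sup_left (mem_X.2 ⟨t, rfl⟩)
  have h2 : ∀ t : K, x (chevE6.neg r.val) t ∈ LL K r := fun t =>
    mem_sup_right (mem_X.2 ⟨t, by rw [neg_eq]⟩)
  show nG hE6 r.val (1 : K) ∈ LL K r
  rw [nG_def]
  exact mul_mem (h1 _) (mul_mem (h2 _) (h1 _))

theorem n_mem_CC (hone : One χ) : ∀ i : Fin 4, i ≠ 3 → n (K := K) i ∈ CC χ := by
  have h1 : ∀ r : Fin 72, χ r.val = 1 → nE (K := K) r.val ∈ CC χ := fun r hr => LL_le_CC hM hr (nE_mem_LL hM r)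
  have h46 := h1 46 (hone 46 (by simp))
  have h39 := h1 39 (hone 39 (by simp))
  have h42 := h1 42 (hone 42 (by simp))
  have h37 := h1 37 (hone 37 (by simp))
  intro i hi
  rw [n_def]
  refine Subgroup.list_prod_mem _ ?_
  intro g hg
  obtain ⟨j, hj, rfl⟩ := List.mem_map.1 hg
  have key : ∀ i : Fin 4, i ≠ 3 → ∀ j ∈ J i, chevE6.simple j ∈ [46, 39, 42, 37] := by decide +kernel
  have h2 := key i hi j hj
  simp only [List.mem_cons, List.not_mem_nil, or_false] at h2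
  rcases h2 with h | h | h | h <;> rw [h]
  · exact h46
  · exact h39
  · exact h42
  · exact h37

theorem diag_le_CC : chevE6.diagonalSubgroup K ≤ CC χ := by
  unfold ChevalleyDatum.diagonalSubgroup
  rw [closure_le]
  rintro g ⟨r, t, hr, ht, hg⟩
  have h := Cfsg.Agent.ChevalleyStructure.StringMem.hMat_eq hE6 (F := K) hr ht
  rw [h] at hg
  show g ∈ CC χ
  rw [mem_CC]
  apply Units.ext
  rw [Units.val_mul, Units.val_mul, hg, coe_dG]
  unfold ChevalleyDatum.charDiag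
  rw [Matrix.diagonal_mul_diagonal, Matrix.diagonal_mul_diagonal]
  congr 1
  funext i
  exact mul_comm _ _

theorem wpos : wP 0 39 = 47 ∧ (wP 3 * wP 2) 47 = 63 := by decide +kernel

theorem conj_LL {g : GL chevE6.Idx K} {w : Equiv.Perm (Fin 72)} (hg : Mo φ g w) (r : Fin 72) :
    MulAut.conj g • LL K r = LL K (w r) := by
  unfold LL
  rw [smul_sup, hg.conj_XX, hg.conj_XX, hg.2.2.2]

variable {φ} (hφ : ∀ t, φ t = t ^ q) (hqq : ∀ t : K, (t ^ q) ^ q = t)

include hφ hqq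

theorem nb_mem_LL : nb K ∈ LL K 47 := by
  have h1 : n (K := K) 1 ∈ LL K 39 := by
    have := nE_mem_LL hM (39 : Fin 72)
    rw [n_def]
    have e : (J 1).map (fun j => nE (K := K) (chevE6.simple j)) = [nE (K := K) 39] := rfl
    rw [e, List.prod_singleton]
    exact this
  have h2 := conj_LL φ hM (mo_n hφ hqq 0) 39
  rw [(wpos hM).1] at h2
  rw [← h2]
  exact ⟨_, h1, rfl⟩

theorem na_mem_LL : na K ∈ LL K 63 := by
  have h2 := conj_LL φ hM ((mo_n hφ hqq 3).mul (mo_n hφ hqq 2)) 47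
  rw [(wpos hM).2] at h2
  rw [← h2]
  exact ⟨_, nb_mem_LL hM hφ hqq, rfl⟩

/-- **`H0` commutes with the diagonal element** -/
theorem H0_le_CC (hone : One χ) : H0 φ q ≤ CC χ := by
  have hr : ∀ i, χ (rt i).val = 1 := by
    intro i
    fin_cases i
    · exact hone 39 (by simp)
    · exact hone 44 (by simp)
    · exact hone 60 (by simp)
    · exact hone 71 (by simp)
  have hL : ∀ i, Lq φ (rt i) ≤ CC χ := fun i => (Lq_le_LL φ _).trans (LL_le_CC hM (hr i))
  have h0 := n_mem_CC hM hone 0 (by decide)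
  have h1 := n_mem_CC hM hone 1 (by decide)
  have h2 := n_mem_CC hM hone 2 (by decide)
  refine sup_le (sup_le (sup_le (sup_le (sup_le (sup_le (sup_le ?_ (hL 0)) (hL 1)) (hL 2)) (hL 3)) ?_) ?_) ?_
  · exact inf_le_left.trans (diag_le_CC hM)
  · rw [zpowers_le]; exact h2
  · rw [zpowers_le]
    exact mul_mem (mul_mem (mul_mem h0 h1) h2) (inv_mem (mul_mem h0 h1))
  · rw [zpowers_le]
    refine mul_mem ?_ ?_
    · exact LL_le_CC hM (hone 63 (by simp)) (na_mem_LL hM hφ hqq)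
    · exact mul_mem (mul_mem h0 h1) (inv_mem h0)

end Cfsg.Agent.H686.AO
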