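import Mathlib
import Cfsg.Agent.H686.AO.Char
import Cfsg.Agent.H967.CopMat
import Cfsg.Agent.H81.AoChev
import Cfsg.Agent.S1066
import Cfsg.Agent.ChevalleyStructure.D4H1

/-!
# Descent of `H0` to the fixed field of the field automorphisms of odd order
-/

set_option autoImplicit false
set_option linter.unusedSectionVars false

namespace Cfsg.Agent.H686.AO

open Subgroup Cfsg Cfsg.Lie Cfsg.Agent.ChevalleyStructure Cfsg.Agent.ChevalleyStructure.Elts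
open Cfsg.Agent.ChevalleyStructure.TwE6Basic Cfsg.Agent.ChevalleyStructure.GraphSymm
open Cfsg.Agent.H81.AoChev
open scoped Pointwise Matrix

universe u

section Map

variable {K : Type u} [Field K] {E : Subfield K}

/-- the extension of scalars -/
noncomputable abbrev em (E : Subfield K) : GL chevE6.Idx ↥E →* GL chevE6.Idx K :=
  Matrix.GeneralLinearGroup.map E.subtype

theorem em_x (r : ℕ) (t : E) : em E (x r t) = x r (t : K) := by
  apply Units.ext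
  exact Cfsg.Agent.ChevStructure.FieldMap.x_map chevE6 E.subtype r t

theorem em_nG (r : ℕ) (t : E) : em E (nG hE6 r t) = nG hE6 r (t : K) := by
  rw [nG_def, nG_def, map_mul, map_mul]
  have h1 := em_x (K := K) r t
  have h2 := em_x (K := K) (chevE6.neg r) (-t⁻¹)
  have e : ((-t⁻¹ : E) : K) = -(t : K)⁻¹ := by push_cast; rfl
  rw [e] at h2
  exact congrArg₂ (· * ·) h1 (congrArg₂ (· * ·) h2 h1)

theorem em_n (i : Fin 4) : em E (n i) = n (K := K) i := by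
  rw [n_def, n_def, map_list_prod, List.map_map]
  congr 1
  refine List.map_congr_left fun j _ => ?_
  exact em_nG _ _

theorem em_hG (r : ℕ) (t : E) : em E (hG hE6 r t) = hG hE6 r (t : K) := by
  rw [hG_def, hG_def, map_mul, em_nG, em_nG]
  congr 2

variable {φ : K →+* K} {φ₀ : E →+* E} {q q₀ : ℕ} (hφ : ∀ t, φ t = t ^ q) (hφ₀ : ∀ t, φ₀ t = t ^ q₀)
  (hqq : ∀ t : E, (t : K) ^ q = (t : K) ^ q₀)

include hφ hφ₀ hqq

theorem fixed_coe {t : E} (ht : φ₀ t = t) : φ (t : K) = t := by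
  rw [hφ, hqq]
  have := congrArg (Subtype.val) ht
  rw [hφ₀] at this
  exact this

theorem map_Rq {r : Fin 72} (hr : rho r = r) : (Rq φ₀ r).map (em E) ≤ Rq φ r := by
  rintro _ ⟨y, hy, rfl⟩
  obtain ⟨t, ht, rfl⟩ := (mem_Rq hr).1 hy
  rw [em_x]
  exact (mem_Rq hr).2 ⟨t, fixed_coe hφ hφ₀ hqq ht, rfl⟩

theorem map_Lq {r : Fin 72} (hr : rho r = r) : (Lq φ₀ r).map (em E) ≤ Lq φ r := by
  unfold Lq
  rw [Subgroup.map_sup]
  exact sup_le_sup (map_Rq hφ hφ₀ hqq hr) (map_Rq hφ hφ₀ hqq (rev_fixed r hr))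

theorem map_TT : (TT E q₀).map (em E) ≤ TT K q := by
  rw [map_le_iff_le_comap]
  intro g hg
  refine ⟨?_, ?_⟩
  · have h1 : chevE6.diagonalSubgroup E ≤ (chevE6.diagonalSubgroup K).comap (em E) := by
      rw [diagonal_le_iff hE6]
      intro r hr t ht
      show em E (hG hE6 r t) ∈ chevE6.diagonalSubgroup K
      rw [em_hG]
      exact hG_mem_diagonal hE6 hr (fun h => ht (Subtype.ext h))
    exact h1 hg.1
  · have h1 : twistedE6 E q₀ ≤ (twistedE6 K q).comap (em E) := by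
      rw [twisted_le_iff]
      refine ⟨fun t ht r hr => ?_, fun t rs hrs => ?_⟩
      · show em E (x r t) ∈ twistedE6 K q
        rw [em_x]
        refine single_mem ?_ hr
        rw [hqq]
        exact congrArg Subtype.val ht
      · show em E (x rs.1 t * x rs.2 (t ^ q₀)) ∈ twistedE6 K q
        rw [map_mul, em_x, em_x]
        have e : ((t ^ q₀ : E) : K) = (t : K) ^ q := by
          rw [hqq]; push_cast; rfl
        rw [e]
        exact pair_mem _ hrs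
    exact h1 hg.2

/-- the groups `H0` are compatible with the extension of scalars -/
theorem map_H0 : (H0 φ₀ q₀).map (em E) ≤ H0 φ q := by
  have hL := fun i => map_Lq hφ hφ₀ hqq (rt_fixed i)
  show map (em E) (TT E q₀ ⊔ Lq φ₀ (rt 0) ⊔ Lq φ₀ (rt 1) ⊔ Lq φ₀ (rt 2) ⊔ Lq φ₀ (rt 3) ⊔ zpowers (n 2) ⊔
    zpowers (ng E) ⊔ zpowers (na E * nb E)) ≤ TT K q ⊔ Lq φ (rt 0) ⊔ Lq φ (rt 1) ⊔ Lq φ (rt 2) ⊔ Lq φ (rt 3) ⊔
    zpowers (n 2) ⊔ zpowers (ng K) ⊔ zpowers (na K * nb K)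
  rw [Subgroup.map_sup, Subgroup.map_sup, Subgroup.map_sup, Subgroup.map_sup, Subgroup.map_sup, Subgroup.map_sup,
    Subgroup.map_sup, MonoidHom.map_zpowers,
    MonoidHom.map_zpowers, MonoidHom.map_zpowers]
  have h1 : em E (ng E) = ng K := by
    unfold ng
    simp only [map_mul, map_inv, em_n]
  have h2 : em E (nb E) = nb K := by
    unfold nb
    simp only [map_mul, map_inv, em_n]
  have h3 : em E (na E) = na K := by
    unfold na
    simp only [map_mul, map_inv, em_n, h2]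
  rw [em_n, h1, map_mul, h2, h3]
  exact sup_le_sup (sup_le_sup (sup_le_sup (sup_le_sup (sup_le_sup (sup_le_sup (sup_le_sup
    (map_TT hφ hφ₀ hqq) (hL 0)) (hL 1)) (hL 2)) (hL 3)) le_rfl) le_rfl) le_rfl

end Map

/-! ### arithmetic -/

theorem oddMul_two {q : ℕ} (hq : Odd q) (k : ℕ) : OddMul 2 ((q ^ 2) ^ k + 1) := by
  have h1 : (q ^ 2) ^ k % 4 = 1 := by
    have h2 : q ^ 2 % 4 = 1 := by
      obtain ⟨a, rfl⟩ := hq
      have : (2 * a + 1) ^ 2 = 4 * (a ^ 2 + a) + 1 := by ring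
      rw [this]; omega
    rw [Nat.pow_mod, h2, one_pow]
    rfl
  refine ⟨((q ^ 2) ^ k + 1) / 2, ?_, ?_⟩
  · rw [Nat.odd_iff]; omega
  · omega

theorem OddMul.trans {a b c : ℕ} (h : OddMul a b) (h' : OddMul b c) : OddMul a c := by
  obtain ⟨t, ht, rfl⟩ := h
  obtain ⟨s, hs, rfl⟩ := h'
  exact ⟨t * s, ht.mul hs, by ring⟩

/-- `x ^ m - 1 = (x - 1) * odd`, `m` odd, `x` odd -/
theorem oddMul_pow_sub {x m : ℕ} (hx : Odd x) (hm : Odd m) : OddMul (x - 1) (x ^ m - 1) := by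
  have := oddMul_sub hx hm 1
  simpa using this

/-- `x ^ m + 1 = (x + 1) * odd`, `m` odd, `x` odd -/
theorem oddMul_pow_add {x m : ℕ} (hx : Odd x) (hm : Odd m) : OddMul (x + 1) (x ^ m + 1) := by
  have h1 : OddMul (x ^ 2 - 1) ((x ^ 2) ^ m - 1) := oddMul_pow_sub hx.pow hm
  have h2 : OddMul (x - 1) (x ^ m - 1) := oddMul_pow_sub hx hm
  have e1 : x ^ 2 - 1 = (x - 1) * (x + 1) := by
    have := Nat.sq_sub_sq x 1
    rw [one_pow] at this
    rw [this, mul_comm]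
  have e2 : (x ^ 2) ^ m - 1 = (x ^ m - 1) * (x ^ m + 1) := by
    have := Nat.sq_sub_sq (x ^ m) 1
    rw [one_pow] at this
    rw [← pow_mul, mul_comm 2 m, pow_mul, this, mul_comm]
  obtain ⟨t, ht, h3⟩ := h1
  obtain ⟨s, hs, h4⟩ := h2
  have hd : x + 1 ∣ x ^ m + 1 := by
    have := hm.nat_add_dvd_pow_add_pow x 1
    simpa using this
  obtain ⟨r, hr⟩ := hd
  refine ⟨r, ?_, hr⟩
  rcases Nat.eq_zero_or_pos (x - 1) with h0 | h0
  · have : x = 1 := by have := hx.pos; omega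
    subst this
    simp at hr
    have : r = 1 := by omega
    rw [this]; exact odd_one
  · rw [e1, e2, h4, hr] at h3
    have h5 : (x - 1) * (x + 1) * (s * r) = (x - 1) * (x + 1) * t := by rw [← h3]; ring
    have h6 := Nat.eq_of_mul_eq_mul_left (Nat.mul_pos h0 (Nat.succ_pos _)) h5
    rw [← h6] at ht
    exact (Nat.odd_mul.1 ht).2

theorem order_oddMul {q : ℕ} (hq : Odd q) :
    OddMul (8 * (q ^ 2 - 1) ^ 4 * (q + 1) ^ 2)
      (q ^ 36 * (q ^ 2 - 1) * (q ^ 5 + 1) * (q ^ 6 - 1) * (q ^ 8 - 1) * (q ^ 9 + 1) * (q ^ 12 - 1)) := by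
  have hsq : ∀ a : ℕ, a ^ 2 - 1 = (a - 1) * (a + 1) := by
    intro a
    have := Nat.sq_sub_sq a 1
    rw [one_pow] at this
    rw [this, mul_comm]
  have h36 : OddMul 1 (q ^ 36) := ⟨q ^ 36, hq.pow, by ring⟩
  have h6 : OddMul (q ^ 2 - 1) (q ^ 6 - 1) := by
    have := oddMul_pow_sub (x := q ^ 2) (m := 3) hq.pow (by decide)
    rwa [← pow_mul] at this
  have h12 : OddMul ((q ^ 2 - 1) * 2) (q ^ 12 - 1) := by
    have h1 : OddMul 2 (q ^ 6 + 1) := by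
      have := oddMul_two hq 3
      rwa [← pow_mul] at this
    have e : q ^ 12 - 1 = (q ^ 6 - 1) * (q ^ 6 + 1) := by
      rw [← hsq, ← pow_mul]
    rw [e]
    exact h6.mul h1
  have h8 : OddMul ((q ^ 2 - 1) * 2 * 2) (q ^ 8 - 1) := by
    have h1 : OddMul 2 (q ^ 4 + 1) := by
      have := oddMul_two hq 2
      rwa [← pow_mul] at this
    have h2 : OddMul 2 (q ^ 2 + 1) := by
      have := oddMul_two hq 1
      rwa [pow_one] at this
    have e : q ^ 8 - 1 = (q ^ 2 - 1) * (q ^ 2 + 1) * (q ^ 4 + 1) := by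
      rw [← hsq, ← pow_mul, ← hsq, ← pow_mul]
    rw [e]
    exact (OddMul.mul ⟨1, odd_one, by ring⟩ h2).mul h1
  have h9 : OddMul (q + 1) (q ^ 9 + 1) := oddMul_pow_add hq (by decide)
  have h5 : OddMul (q + 1) (q ^ 5 + 1) := oddMul_pow_add hq (by decide)
  have h2 : OddMul (q ^ 2 - 1) (q ^ 2 - 1) := ⟨1, odd_one, by ring⟩
  have h := (((((h36.mul h2).mul h5).mul h6).mul h8).mul h9).mul h12
  have e : 1 * (q ^ 2 - 1) * (q + 1) * (q ^ 2 - 1) * ((q ^ 2 - 1) * 2 * 2) * (q + 1) * ((q ^ 2 - 1) * 2) =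
      8 * (q ^ 2 - 1) ^ 4 * (q + 1) ^ 2 := by ring
  rwa [e] at h

/-- the number of fixed elements -/
theorem card_fixed' {K : Type u} [Field K] [Finite K] {φ : K →+* K} {q : ℕ} (hq : 1 < q)
    (hK : Nat.card K = q ^ 2) (hφ : ∀ t, φ t = t ^ q) : Nat.card (Option {t : K // φ t = t}) = q + 1 := by
  have : Fintype K := Fintype.ofFinite K
  rw [Nat.card_eq_fintype_card] at hK
  rw [Finite.card_option]
  have h1 := Cfsg.Agent.ChevalleyStructure.D4H1.card_fixed hq hK hφ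
  have h2 : Nat.card (↥(kq φ))ˣ = Nat.card {b : Kˣ // φ b = b} := by
    refine Nat.card_congr
      { toFun := fun b => ⟨Units.map ((kq φ).subtype : kq φ →* K) b, (b : kq φ).2⟩
        invFun := fun b => Units.mk0 ⟨((b : Kˣ) : K), b.2⟩ (fun e => (b : Kˣ).ne_zero (congrArg Subtype.val e))
        left_inv := fun b => Units.ext (Subtype.ext rfl)
        right_inv := fun b => Subtype.ext (Units.ext rfl) }
  rw [h1, Nat.card_units] at h2
  have h3 : 0 < Nat.card (kq φ) := Nat.card_pos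
  have h4 : Nat.card {t : K // φ t = t} = Nat.card (kq φ) := rfl
  omega

theorem pow_odd_eq {K : Type u} [Field K] {q₀ m : ℕ} (hm : Odd m) {t : K} (ht : (t ^ q₀) ^ q₀ = t) :
    t ^ q₀ ^ m = t ^ q₀ := by
  obtain ⟨k, rfl⟩ := hm
  induction k with
  | zero => simp
  | succ k ih =>
    have e : q₀ ^ (2 * (k + 1) + 1) = q₀ ^ (2 * k + 1) * (q₀ * q₀) := by ring
    rw [e, pow_mul, ih, pow_mul, ht]

theorem gcd_odd (q : ℕ) : Odd (Nat.gcd 3 (q + 1)) :=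
  Odd.of_dvd_nat (by decide) (Nat.gcd_dvd_left 3 (q + 1))

/-- **the index of the image of `H0` over the small field is odd** -/
theorem exists_H0 {K : Type u} [Field K] [Finite K] {E : Subfield K} {q q₀ m : ℕ} (hq : IsPrimePow q)
    (hodd : Odd q) (hK : Nat.card K = q ^ 2) (hm : Odd m) (hqm : q = q₀ ^ m) (hE : Nat.card E = q₀ ^ 2) :
    ∃ (φ : K →+* K) (G₀ : Subgroup (GL chevE6.Idx E)), (∀ t, φ t = t ^ q) ∧ (∀ t : K, (t ^ q) ^ q = t) ∧
      G₀.map (em E) ≤ H0 φ q ∧ H0 φ q ≤ twistedE6 K q ∧ ¬ 2 ∣ (G₀.map (em E)).relIndex (twistedE6 K q) := by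
  have : Fintype K := Fintype.ofFinite K
  have : Fintype E := Fintype.ofFinite E
  rw [Nat.card_eq_fintype_card] at hK hE
  have hq0odd : Odd q₀ := by
    rw [hqm] at hodd
    exact hodd.of_dvd_nat (dvd_pow_self _ hm.pos.ne')
  have hq0 : IsPrimePow q₀ := by
    rw [hqm] at hq
    exact (isPrimePow_pow_iff hm.pos.ne').1 hq
  obtain ⟨φ, hφ, hφφ⟩ := TwE6Basic.exists_frob hq hK
  obtain ⟨φ₀, hφ₀, hφφ₀⟩ := TwE6Basic.exists_frob hq0 hE
  have hqq : ∀ t : E, (t : K) ^ q = (t : K) ^ q₀ := by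
    intro t
    rw [hqm]
    refine pow_odd_eq hm ?_
    have := congrArg Subtype.val (hφφ₀ t)
    exact this
  refine ⟨φ, H0 φ₀ q₀, hφ, hφφ, map_H0 hφ hφ₀ hqq, H0_le hφ hφφ, ?_⟩
  have hle : (H0 φ₀ q₀).map (em E) ≤ twistedE6 K q := (map_H0 hφ hφ₀ hqq).trans (H0_le hφ hφφ)
  intro h2
  have c1 : Nat.card ↥((H0 φ₀ q₀).map (em E)) = Nat.card ↥(H0 φ₀ q₀) :=
    (Nat.card_congr ((H0 φ₀ q₀).equivMapOfInjective _
      (Cfsg.Agent.H967.CopMat.map_injective E.subtype)).toEquiv).symm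
  have c2 := card_mul_index (((H0 φ₀ q₀).map (em E)).subgroupOf (twistedE6 K q))
  rw [Nat.card_congr (subgroupOfEquivOfLe hle).toEquiv, c1] at c2
  have c3 := card_H0_dvd hφ₀ hφφ₀
  rw [card_fixed' hq0.one_lt (by rw [Nat.card_eq_fintype_card, hE]) hφ₀] at c3
  have c4 := S1102.result hq0 hE
  have c5 := S1066.result hq hK
  have c6 : 2 * Nat.card ↥(H0 φ₀ q₀) ∣ Nat.card ↥(twistedE6 K q) := by
    rw [← c2, mul_comm 2]
    exact mul_dvd_mul_left _ h2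
  have c7 : 2 * (8 * (q₀ + 1) ^ 4 * Nat.card ↥(TT E q₀)) ∣ Nat.card ↥(twistedE6 K q) :=
    (mul_dvd_mul_left 2 c3).trans c6
  have c8 : Nat.gcd 3 (q₀ + 1) * (2 * (8 * (q₀ + 1) ^ 4 * Nat.card ↥(TT E q₀))) ∣
      Nat.gcd 3 (q₀ + 1) * (Nat.gcd 3 (q + 1) * Nat.card ↥(twistedE6 K q)) :=
    mul_dvd_mul_left _ (c7.trans (dvd_mul_left _ _))
  rw [c5] at c8
  have e1 : Nat.gcd 3 (q₀ + 1) * (2 * (8 * (q₀ + 1) ^ 4 * Nat.card ↥(TT E q₀))) =
      2 * (8 * (q₀ + 1) ^ 4 * (Nat.gcd 3 (q₀ + 1) * Nat.card ↥(TT E q₀))) := by ring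
  have e2 : q₀ ^ 2 - 1 = (q₀ - 1) * (q₀ + 1) := by
    have := Nat.sq_sub_sq q₀ 1
    rw [one_pow] at this
    rw [this, mul_comm]
  rw [e1] at c8
  unfold TT at c8
  rw [c4] at c8
  have e3 : 2 * (8 * (q₀ + 1) ^ 4 * ((q₀ - 1) ^ 4 * (q₀ + 1) ^ 2)) = 2 * (8 * (q₀ ^ 2 - 1) ^ 4 * (q₀ + 1) ^ 2) := by
    rw [e2]; ring
  rw [e3] at c8
  -- the order formula
  have o1 := order_oddMul hodd
  have o2 : OddMul (8 * (q₀ ^ 2 - 1) ^ 4 * (q₀ + 1) ^ 2) (8 * (q ^ 2 - 1) ^ 4 * (q + 1) ^ 2) := by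
    have a1 : OddMul (q₀ ^ 2 - 1) (q ^ 2 - 1) := by
      rw [hqm]; exact oddMul_sub hq0odd hm 2
    have a2 : OddMul (q₀ + 1) (q + 1) := by
      rw [hqm]; exact oddMul_pow_add hq0odd hm
    have a3 := ((OddMul.mul ⟨1, odd_one, by ring⟩ (((a1.mul a1).mul (a1.mul a1)))).mul (a2.mul a2) :
      OddMul (8 * ((q₀ ^ 2 - 1) * (q₀ ^ 2 - 1) * ((q₀ ^ 2 - 1) * (q₀ ^ 2 - 1))) * ((q₀ + 1) * (q₀ + 1)))
        (8 * ((q ^ 2 - 1) * (q ^ 2 - 1) * ((q ^ 2 - 1) * (q ^ 2 - 1))) * ((q + 1) * (q + 1))))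
    have b : ∀ x y : ℕ, 8 * (x * x * (x * x)) * (y * y) = 8 * x ^ 4 * y ^ 2 := by intros; ring
    rwa [b, b] at a3
  obtain ⟨t, ht, o3⟩ := OddMul.trans o2 o1
  rw [o3] at c8
  have hpos : 0 < 8 * (q₀ ^ 2 - 1) ^ 4 * (q₀ + 1) ^ 2 := by
    have h1 : 0 < q₀ ^ 2 - 1 := by
      have := hq0.one_lt
      have : 1 < q₀ ^ 2 := Nat.one_lt_pow (by norm_num) this
      omega
    positivity
  have c9 : 8 * (q₀ ^ 2 - 1) ^ 4 * (q₀ + 1) ^ 2 * 2 ∣
      8 * (q₀ ^ 2 - 1) ^ 4 * (q₀ + 1) ^ 2 * (Nat.gcd 3 (q₀ + 1) * t) := by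
    refine Dvd.dvd.trans (dvd_of_eq (mul_comm _ _)) (c8.trans (dvd_of_eq ?_))
    ring
  have c10 := Nat.dvd_of_mul_dvd_mul_left hpos c9
  exact Nat.not_even_iff_odd.2 ((gcd_odd q₀).mul ht) (even_iff_two_dvd.2 c10)

end Cfsg.Agent.H686.AO
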