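import Mathlib
import Cfsg.Agent.H686.AO.Char
import Cfsg.Agent.H166.OutTwESix
import Cfsg.Agent.H967.CopTw

/-!
# Inner automorphisms of `²E₆(q)` of the form diagonal times field automorphism
-/

set_option autoImplicit false
set_option linter.unusedSectionVars false

namespace Cfsg.Agent.H686.AO

open Cfsg Cfsg.Lie Cfsg.Agent.ChevalleyStructure Cfsg.Agent.ChevalleyStructure.Elts
open Cfsg.Agent.ChevalleyStructure.TwE6Basic Cfsg.Agent.ChevalleyStructure.GraphSymm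
open Cfsg.Agent.H70.ChevDiag Cfsg.Agent.H166.TwDiag
open Cfsg.Agent.H166.OutTwESix (Ok conj_mem conj_mem' diag_dgA)
open Cfsg.Agent.H967.CopMat Cfsg.Agent.H967.CopTw
open scoped Pointwise Matrix

universe u

section Tor

variable {K : Type u} [Field K]

theorem diag_conj_formula {h : GL chevE6.Idx K} (hh : h ∈ chevE6.diagonalSubgroup K) :
    ∃ c : ℕ → K, (∀ i < 6, c i ≠ 0) ∧ ∀ (r : Fin 72) (t : K), h * x r.val t * h⁻¹ =
      x r.val (((List.range 6).map fun i => c i ^ (chevE6.cartan i r.val)).prod * t) := by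
  obtain ⟨c, hc, e⟩ := Cfsg.Agent.S1034.result (F := K) chevE6 hE6 h hh
  have e' : h = wordG hE6 ((List.range chevE6.rank).flatMap fun i => chevE6.hWord (chevE6.simple i) (c i)) :=
    (eq_wordG_iff hE6 _ _).2 e
  refine ⟨c, hc, fun r t => ?_⟩
  have step : ∀ L : List ℕ, (∀ i ∈ L, i < chevE6.rank) →
      wordG hE6 (L.flatMap fun i => chevE6.hWord (chevE6.simple i) (c i)) * x r.val t *
        (wordG hE6 (L.flatMap fun i => chevE6.hWord (chevE6.simple i) (c i)))⁻¹ =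
        x r.val ((L.map fun i => c i ^ (chevE6.cartan i r.val)).prod * t) := by
    intro L
    induction L with
    | nil => intro _; simp [wordG_nil]
    | cons i L ih =>
      intro hL
      have hi := hL i List.mem_cons_self
      have h1 := ih (fun j hj => hL j (List.mem_cons_of_mem _ hj))
      rw [List.flatMap_cons, wordG_append, List.map_cons, List.prod_cons]
      have e1 : ∀ a b g : GL chevE6.Idx K, a * b * g * (a * b)⁻¹ = a * (b * g * b⁻¹) * a⁻¹ := by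
        intro a b g; group
      rw [e1, h1, mul_inv_eq_iff_eq_mul, mul_assoc (c i ^ _)]
      exact Units.ext (Cfsg.Agent.S1032.result (F := K) chevE6 hE6 i r.val hi r.isLt (c i) (hc i hi) _)
  rw [e']
  exact step _ fun i hi => List.mem_range.1 hi

/-- the value of the character of a torus element -/
noncomputable def val (c : ℕ → K) (r : ℕ) : K := ((List.range 6).map fun i => c i ^ (chevE6.cartan i r)).prod

theorem val_eq (c : ℕ → K) (r : ℕ) {a0 a1 a2 a3 a4 a5 : ℤ} (h : (List.range 6).map (fun i => chevE6.cartan i r) =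
    [a0, a1, a2, a3, a4, a5]) :
    val c r = c 0 ^ a0 * (c 1 ^ a1 * (c 2 ^ a2 * (c 3 ^ a3 * (c 4 ^ a4 * c 5 ^ a5)))) := by
  have e : List.range 6 = [0, 1, 2, 3, 4, 5] := rfl
  rw [e] at h
  simp only [List.map_cons, List.map_nil, List.cons.injEq, and_true] at h
  obtain ⟨h0, h1, h2, h3, h4, h5⟩ := h
  unfold val
  rw [e]
  simp only [List.map_cons, List.map_nil, List.prod_cons, List.prod_nil, mul_one, h0, h1, h2, h3, h4, h5]

/-- the cube root -/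
theorem exists_cube {c : ℕ → K} (hc : ∀ i < 6, c i ≠ 0) {a : K} (ha : a ≠ 0) (h56 : val c 56 = a) (h46 : val c 46 = 1)
    (h42 : val c 42 = 1) (h39 : val c 39 = 1) (h37 : val c 37 = 1) (h36 : val c 36 = a⁻¹) : ∃ d : K, d ^ 3 = a := by
  rw [val_eq c 56 (a0 := 2) (a1 := 0) (a2 := -1) (a3 := 0) (a4 := 0) (a5 := 0) (by decide +kernel)] at h56
  rw [val_eq c 46 (a0 := 0) (a1 := 2) (a2 := 0) (a3 := -1) (a4 := 0) (a5 := 0) (by decide +kernel)] at h46
  rw [val_eq c 42 (a0 := -1) (a1 := 0) (a2 := 2) (a3 := -1) (a4 := 0) (a5 := 0) (by decide +kernel)] at h42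
  rw [val_eq c 39 (a0 := 0) (a1 := -1) (a2 := -1) (a3 := 2) (a4 := -1) (a5 := 0) (by decide +kernel)] at h39
  rw [val_eq c 37 (a0 := 0) (a1 := 0) (a2 := 0) (a3 := -1) (a4 := 2) (a5 := -1) (by decide +kernel)] at h37
  rw [val_eq c 36 (a0 := 0) (a1 := 0) (a2 := 0) (a3 := 0) (a4 := -1) (a5 := 2) (by decide +kernel)] at h36
  have c0 := hc 0 (by norm_num)
  have c1 := hc 1 (by norm_num)
  have c2 := hc 2 (by norm_num)
  have c3 := hc 3 (by norm_num)
  have c4 := hc 4 (by norm_num)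
  have c5 := hc 5 (by norm_num)
  refine ⟨a / c 0, ?_⟩
  have key : (c 0 ^ (2 : ℤ) * (c 1 ^ (0 : ℤ) * (c 2 ^ (-1 : ℤ) * (c 3 ^ (0 : ℤ) * (c 4 ^ (0 : ℤ) * c 5 ^ (0 : ℤ)))))) ^ 4 *
      (c 0 ^ (0 : ℤ) * (c 1 ^ (2 : ℤ) * (c 2 ^ (0 : ℤ) * (c 3 ^ (-1 : ℤ) * (c 4 ^ (0 : ℤ) * c 5 ^ (0 : ℤ)))))) ^ 3 *
      (c 0 ^ (-1 : ℤ) * (c 1 ^ (0 : ℤ) * (c 2 ^ (2 : ℤ) * (c 3 ^ (-1 : ℤ) * (c 4 ^ (0 : ℤ) * c 5 ^ (0 : ℤ)))))) ^ 5 *
      (c 0 ^ (0 : ℤ) * (c 1 ^ (-1 : ℤ) * (c 2 ^ (-1 : ℤ) * (c 3 ^ (2 : ℤ) * (c 4 ^ (-1 : ℤ) * c 5 ^ (0 : ℤ)))))) ^ 6 *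
      (c 0 ^ (0 : ℤ) * (c 1 ^ (0 : ℤ) * (c 2 ^ (0 : ℤ) * (c 3 ^ (-1 : ℤ) * (c 4 ^ (2 : ℤ) * c 5 ^ (-1 : ℤ)))))) ^ 4 *
      (c 0 ^ (0 : ℤ) * (c 1 ^ (0 : ℤ) * (c 2 ^ (0 : ℤ) * (c 3 ^ (0 : ℤ) * (c 4 ^ (-1 : ℤ) * c 5 ^ (2 : ℤ)))))) ^ 2 =
      c 0 ^ 3 := by
    field_simp
  rw [h56, h46, h42, h39, h37, h36] at key
  rw [div_pow, ← key]
  field_simp

end Tor

section Delta

variable {K : Type u} [Field K] {q : ℕ}

theorem mE_tab2 : mE 46 0 - mE 46 5 = 0 ∧ mE 25 0 - mE 25 5 = 0 ∧ mE 39 0 - mE 39 5 = 0 ∧ mE 32 0 - mE 32 5 = 0 ∧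
    mE 56 0 - mE 56 5 = 1 ∧ mE 36 0 - mE 36 5 = -1 ∧ mE 15 0 - mE 15 5 = -1 ∧ mE 35 0 - mE 35 5 = 1 ∧
    mE 42 0 - mE 42 5 = 0 ∧ mE 37 0 - mE 37 5 = 0 ∧ mE 29 0 - mE 29 5 = 0 ∧ mE 34 0 - mE 34 5 = 0 := by
  decide +kernel

theorem ch_ok {c : Kˣ} (hc : c ^ (q + 1) = 1) : Ok q (ch c) := by
  obtain ⟨t1, t2, t3, t4, t5, t6, t7, t8, t9, t10, t11, t12⟩ := mE_tab2
  have h1 : c⁻¹ = c ^ q := by
    rw [inv_eq_iff_mul_eq_one, mul_comm, ← pow_succ, hc]
  constructor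
  · intro r hr
    simp only [List.mem_cons, List.not_mem_nil, or_false] at hr
    rcases hr with rfl | rfl | rfl | rfl
    · rw [ch_apply, t1, zpow_zero, one_pow]
    · rw [ch_apply, t2, zpow_zero, one_pow]
    · rw [ch_apply, t3, zpow_zero, one_pow]
    · rw [ch_apply, t4, zpow_zero, one_pow]
  · intro r hr
    simp only [List.mem_cons, List.not_mem_nil, or_false] at hr
    rcases hr with rfl | rfl | rfl | rfl
    · show ch c 36 = ch c 56 ^ q
      rw [ch_apply, ch_apply, t5, t6, zpow_neg, zpow_one, h1]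
    · show ch c 35 = ch c 15 ^ q
      rw [ch_apply, ch_apply, t7, t8, zpow_neg, zpow_one, inv_pow, ← h1, inv_inv]
    · show ch c 37 = ch c 42 ^ q
      rw [ch_apply, ch_apply, t9, t10, zpow_zero, one_pow]
    · show ch c 34 = ch c 29 ^ q
      rw [ch_apply, ch_apply, t11, t12, zpow_zero, one_pow]

theorem dG_mul (χ χ' : ℕ → Kˣ) : dG chevE6 χ * dG chevE6 χ' = dG chevE6 (fun r => χ r * χ' r) := by
  apply Units.ext
  rw [Units.val_mul, coe_dG, coe_dG, coe_dG]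
  unfold ChevalleyDatum.charDiag
  rw [Matrix.diagonal_mul_diagonal]
  congr 1
  funext i
  rcases i with i | i <;> simp

theorem ch_mul_fun (c c' : Kˣ) : (fun r => ch c r * ch c' r) = ch (c * c') := by
  funext r
  rw [ch_apply, ch_apply, ch_apply, mul_zpow]

theorem dG_ch_mul (c c' : Kˣ) : dG chevE6 (ch c) * dG chevE6 (ch c') = dG chevE6 (ch (c * c')) := by
  rw [dG_mul, ch_mul_fun]

theorem dG_ch_one : dG chevE6 (ch (1 : Kˣ)) = 1 := by
  have h := dG_ch_mul (1 : Kˣ) 1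
  rw [mul_one] at h
  exact mul_eq_left.1 h

/-- the group of the parameters -/
def mu (K : Type u) [Field K] (n : ℕ) : Subgroup Kˣ := (powMonoidHom n : Kˣ →* Kˣ).ker

theorem mem_mu {n : ℕ} {c : Kˣ} : c ∈ mu K n ↔ c ^ n = 1 := Iff.rfl

theorem pow_of_mu {n : ℕ} (hn : n ∣ q + 1) {c : Kˣ} (hc : c ∈ mu K n) : c ^ (q + 1) = 1 := by
  obtain ⟨k, hk⟩ := hn
  rw [hk, pow_mul, mem_mu.1 hc, one_pow]

/-- the diagonal automorphism -/
noncomputable def dl0 (c : Kˣ) (hc : c ^ (q + 1) = 1) : MulAut ↥(twistedE6 K q) :=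
  dgA (conj_mem (ch_mul c) (ch_ok hc)) (conj_mem' (ch_mul c) (ch_ok hc))

theorem coe_dl0 (c : Kˣ) (hc : c ^ (q + 1) = 1) (g : ↥(twistedE6 K q)) :
    ((dl0 c hc g : ↥(twistedE6 K q)) : GL chevE6.Idx K) = dG chevE6 (ch c) * g * (dG chevE6 (ch c))⁻¹ := rfl

theorem dl0_one (h : (1 : Kˣ) ^ (q + 1) = 1) : dl0 (q := q) (1 : Kˣ) h = 1 := by
  ext1 g
  apply Subtype.ext
  rw [coe_dl0, dG_ch_one, inv_one, mul_one, one_mul, MulAut.one_apply]

theorem dl0_mul (c c' : Kˣ) (hc : c ^ (q + 1) = 1) (hc' : c' ^ (q + 1) = 1) (hcc : (c * c') ^ (q + 1) = 1) :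
    dl0 (c * c') hcc = dl0 c hc * dl0 c' hc' := by
  ext1 g
  apply Subtype.ext
  rw [MulAut.mul_apply, coe_dl0, coe_dl0, coe_dl0, ← dG_ch_mul]
  group

/-- the diagonal automorphisms -/
noncomputable def dl {n : ℕ} (hn : n ∣ q + 1) : mu K n →* MulAut ↥(twistedE6 K q) where
  toFun c := dl0 (c : Kˣ) (pow_of_mu hn c.2)
  map_one' := dl0_one _
  map_mul' _ _ := dl0_mul _ _ _ _ _

theorem coe_dl {n : ℕ} (hn : n ∣ q + 1) (c : mu K n) (g : ↥(twistedE6 K q)) :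
    ((dl hn c g : ↥(twistedE6 K q)) : GL chevE6.Idx K) = dG chevE6 (ch (c : Kˣ)) * g * (dG chevE6 (ch (c : Kˣ)))⁻¹ := rfl

/-- the action of the field automorphisms on the parameters -/
def muMap {n : ℕ} (σ : K ≃+* K) (c : mu K n) : mu K n :=
  ⟨Units.map (σ : K →* K) c, by
    rw [mem_mu, ← map_pow, mem_mu.1 c.2, map_one]⟩

theorem map_dG (σ : K ≃+* K) (c : Kˣ) :
    Matrix.GeneralLinearGroup.map (σ : K →+* K) (dG chevE6 (ch c)) = dG chevE6 (ch (Units.map (σ : K →* K) c)) := by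
  apply Units.ext
  show (chevE6.charDiag K (ch c)).map (σ : K →+* K) = chevE6.charDiag K (ch (Units.map (σ : K →* K) c))
  unfold ChevalleyDatum.charDiag
  rw [Matrix.diagonal_map (map_zero _)]
  congr 1
  funext i
  rcases i with i | i
  · simp
  · show σ ((ch c i.val : Kˣ) : K) = ((ch (Units.map (σ : K →* K) c) i.val : Kˣ) : K)
    rw [ch_apply, ch_apply]
    simp

theorem fieldAut_dl {n : ℕ} (hn : n ∣ q + 1) (σ : K ≃+* K) (c : mu K n) :
    fieldAut (stab_e6 q) σ * dl hn c = dl hn (muMap σ c) * fieldAut (stab_e6 q) σ := by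
  ext1 g
  apply Subtype.ext
  rw [MulAut.mul_apply, MulAut.mul_apply, coe_fieldAut, coe_dl, coe_dl, coe_fieldAut, map_mul, map_mul, map_inv,
    map_dG]
  rfl

theorem map_x (ρ : K ≃+* K) (r : ℕ) (t : K) :
    Matrix.GeneralLinearGroup.map (ρ : K →+* K) (x r t : GL chevE6.Idx K) = x r (ρ t) := by
  apply Units.ext
  exact Cfsg.Agent.ChevStructure.FieldMap.x_map chevE6 (ρ : K →+* K) r t

theorem dG_x (c : Kˣ) (r : ℕ) (t : K) :
    dG chevE6 (ch c) * x r t * (dG chevE6 (ch c))⁻¹ = x r ((ch c r : K) * t) := dG_conj hE6 (ch_mul c) r t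

end Delta

section Key

open Cfsg.Agent.Nodes.RGDFold Cfsg.Agent.Nodes.RGDTwE6 Cfsg.Agent.KFacts.TwESix.Out Cfsg.Agent.KFacts.TwESix.OutTwo
open Cfsg.Agent.CpAut.RgdTwE6 (st ntau_st)
open Cfsg.Agent.H166.OutNodes (mem_frame_of_diag)
open Cfsg.Agent.H166.OutRGD (mem_T_of_frame)

variable {K : Type u} [Field K] [Fintype K] {q : ℕ}

theorem mem_diag_of_eq (hq : IsPrimePow q) (hK : Fintype.card K = q ^ 2) {n : ℕ} (hn : n ∣ q + 1) (c : mu K n)
    (ρ : K ≃+* K) (y : ↥(twistedE6 K q)) (h : MulAut.conj y = dl hn c * fieldAut (stab_e6 q) ρ) :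
    (y : GL chevE6.Idx K) ∈ chevE6.diagonalSubgroup K := by
  obtain ⟨φ, hφ, hqq⟩ := TwE6Basic.exists_frob hq hK
  obtain ⟨p, hp⟩ := CharP.exists K
  have : Fact p.Prime := ⟨CharP.char_is_prime K p⟩
  have hW : Finite CoxeterMatrix.F₄.Group :=
    Cfsg.Agent.Nodes.RGDFold.finite_W (hp := Cfsg.Agent.Nodes.RGDTwE6.hp) CoxeterMatrix.F₄.toCoxeterSystem
      Cfsg.Agent.Nodes.RGDTwE6.isCartan Cfsg.Agent.Nodes.RGDTwE6.foldData
  have R := Cfsg.Agent.Nodes.RGDTwE6.rgd CoxeterMatrix.F₄.toCoxeterSystem hφ hqq p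
  have h1 := diag_dgA hφ hqq (ch_mul (c : Kˣ)) (ch_ok (pow_of_mu hn c.2))
  have h2 := (ntau_st hφ hqq ρ CoxeterMatrix.F₄.toCoxeterSystem p).diag
  have h3 := h1.mul h2
  rw [mul_one] at h3
  have h4 := mem_frame_of_diag R h3
  have h6 := mem_T_of_frame R (Cfsg.Agent.KFacts.RgdRigid.GG_eq_top (G1_top CoxeterMatrix.F₄.toCoxeterSystem hφ hqq)) (g := y)
    (by rw [h]; exact h4)
  exact h6.1

section Eval

variable {n : ℕ} {hn : n ∣ q + 1} {c : mu K n} {ρ : K ≃+* K} {y : ↥(twistedE6 K q)} {c' : ℕ → K}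
  (h : MulAut.conj y = dl hn c * fieldAut (stab_e6 q) ρ)
  (hf : ∀ (r : Fin 72) (t : K), (y : GL chevE6.Idx K) * x r.val t * (y : GL chevE6.Idx K)⁻¹ = x r.val (val c' r.val * t))

include h hf

theorem eval_single (r : Fin 72) (hr : r.val ∈ [46, 25, 39, 32]) : val c' r.val = (ch (c : Kˣ) r.val : K) := by
  let u : ↥(twistedE6 K q) := ⟨x r.val 1, single_mem (one_pow q) hr⟩
  have h1 : ((MulAut.conj y u : ↥(twistedE6 K q)) : GL chevE6.Idx K) = (dl hn c * fieldAut (stab_e6 q) ρ) u := by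
    rw [h]
  have h2 : ((MulAut.conj y u : ↥(twistedE6 K q)) : GL chevE6.Idx K) = x r.val (val c' r.val * 1) := hf r 1
  have h3 : (((dl hn c * fieldAut (stab_e6 q) ρ) u : ↥(twistedE6 K q)) : GL chevE6.Idx K) =
      x r.val ((ch (c : Kˣ) r.val : K) * ρ 1) := by
    rw [MulAut.mul_apply, coe_dl, coe_fieldAut]
    show _ * Matrix.GeneralLinearGroup.map (ρ : K →+* K) (x r.val 1) * _ = _
    rw [map_x, dG_x]
  rw [h2, h3, map_one, mul_one, mul_one] at h1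
  exact x_injective r.isLt h1

theorem eval_pair {i : Fin 4} {r s : Fin 72} (C : Cfsg.Agent.ChevalleyStructure.TwE6BN.PairOK.{u} i r.val s.val)
    (hr : (r.val, s.val) ∈ [(56, 36), (15, 35), (42, 37), (29, 34)]) (t : K) :
    val c' r.val * t = (ch (c : Kˣ) r.val : K) * ρ t ∧ val c' s.val * t ^ q = (ch (c : Kˣ) s.val : K) * ρ (t ^ q) := by
  let u : ↥(twistedE6 K q) := ⟨x r.val t * x s.val (t ^ q), pair_mem t hr⟩
  have h1 : ((MulAut.conj y u : ↥(twistedE6 K q)) : GL chevE6.Idx K) = (dl hn c * fieldAut (stab_e6 q) ρ) u := by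
    rw [h]
  have h2 : ((MulAut.conj y u : ↥(twistedE6 K q)) : GL chevE6.Idx K) =
      x r.val (val c' r.val * t) * x s.val (val c' s.val * t ^ q) := by
    rw [← hf, ← hf]
    show (y : GL chevE6.Idx K) * (x r.val t * x s.val (t ^ q)) * (y : GL chevE6.Idx K)⁻¹ = _
    group
  have h3 : (((dl hn c * fieldAut (stab_e6 q) ρ) u : ↥(twistedE6 K q)) : GL chevE6.Idx K) =
      x r.val ((ch (c : Kˣ) r.val : K) * ρ t) * x s.val ((ch (c : Kˣ) s.val : K) * ρ (t ^ q)) := by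
    rw [MulAut.mul_apply, coe_dl, coe_fieldAut]
    show _ * Matrix.GeneralLinearGroup.map (ρ : K →+* K) (x r.val t * x s.val (t ^ q)) * _ = _
    rw [map_mul, map_x, map_x, ← dG_x, ← dG_x]
    group
  rw [h2, h3] at h1
  exact C.x_pair_inj h1

end Eval

/-- **Inner automorphisms of the form diagonal times field automorphism.** -/
theorem key (hq : IsPrimePow q) (hK : Fintype.card K = q ^ 2) {n : ℕ} (hn : n ∣ q + 1) (c : mu K n)
    (ρ : K ≃+* K) (y : ↥(twistedE6 K q)) (h : MulAut.conj y = dl hn c * fieldAut (stab_e6 q) ρ) :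
    ρ = 1 ∧ ∃ d : K, d ^ 3 = ((c : Kˣ) : K) := by
  obtain ⟨c', hc', hf⟩ := diag_conj_formula (mem_diag_of_eq hq hK hn c ρ y h)
  have hf' : ∀ (r : Fin 72) (t : K), (y : GL chevE6.Idx K) * x r.val t * (y : GL chevE6.Idx K)⁻¹ =
      x r.val (val c' r.val * t) := hf
  obtain ⟨t1, t2, t3, t4, t5, t6, t7, t8, t9, t10, t11, t12⟩ := mE_tab2
  have e46 : val c' 46 = 1 := by
    have := eval_single h hf' 46 (by decide)
    rw [ch_apply] at this
    have t1' : mE (46 : Fin 72).val 0 - mE (46 : Fin 72).val 5 = 0 := t1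
    rw [t1', zpow_zero] at this
    exact this
  have e39 : val c' 39 = 1 := by
    have := eval_single h hf' 39 (by decide)
    rw [ch_apply] at this
    have t1' : mE (39 : Fin 72).val 0 - mE (39 : Fin 72).val 5 = 0 := t3
    rw [t1', zpow_zero] at this
    exact this
  have p42 := fun t => eval_pair h hf' (r := 42) (s := 37) Cfsg.Agent.ChevalleyStructure.TwE6BN.pair2 (by decide) t
  have p56 := fun t => eval_pair h hf' (r := 56) (s := 36) Cfsg.Agent.ChevalleyStructure.TwE6BN.pair3 (by decide) t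
  have a42 : ch (c : Kˣ) 42 = 1 := by rw [ch_apply, t9, zpow_zero]
  have a37 : ch (c : Kˣ) 37 = 1 := by rw [ch_apply, t10, zpow_zero]
  have a56 : ch (c : Kˣ) 56 = c := by rw [ch_apply, t5, zpow_one]
  have a36 : ch (c : Kˣ) 36 = (c : Kˣ)⁻¹ := by rw [ch_apply, t6, zpow_neg, zpow_one]
  have b42 : ∀ t, val c' 42 * t = ρ t := by
    intro t
    have h1 : val c' 42 * t = (ch (c : Kˣ) 42 : K) * ρ t := (p42 t).1
    rw [a42, Units.val_one, one_mul] at h1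
    exact h1
  have e42 : val c' 42 = 1 := by
    have := b42 1
    rwa [mul_one, map_one] at this
  have e37 : val c' 37 = 1 := by
    have h1 : val c' 37 * 1 ^ q = (ch (c : Kˣ) 37 : K) * ρ (1 ^ q) := (p42 1).2
    rw [a37, Units.val_one, one_mul, one_pow, map_one, mul_one] at h1
    exact h1
  have e56 : val c' 56 = ((c : Kˣ) : K) := by
    have h1 : val c' 56 * 1 = (ch (c : Kˣ) 56 : K) * ρ 1 := (p56 1).1
    rw [a56, map_one, mul_one, mul_one] at h1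
    exact h1
  have e36 : val c' 36 = ((c : Kˣ) : K)⁻¹ := by
    have h1 : val c' 36 * 1 ^ q = (ch (c : Kˣ) 36 : K) * ρ (1 ^ q) := (p56 1).2
    rw [a36, one_pow, map_one, mul_one, mul_one, Units.val_inv_eq_inv_val] at h1
    exact h1
  refine ⟨?_, exists_cube hc' (c : Kˣ).ne_zero e56 e46 e42 e39 e37 e36⟩
  ext t
  rw [← b42 t, e42, one_mul]
  rfl

end Key

end Cfsg.Agent.H686.AO
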