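import Mathlib
import Cfsg.Agent.H686.AO.Desc
import Cfsg.Agent.H686.AO.OutKey
import Cfsg.Agent.H565.CopTw
import Cfsg.Agent.H561.RV.AutCrit
import Cfsg.Agent.S2130

/-!
# `AutOdd` for `²E₆(q)`, `q` odd (helper686, task 4527)
-/

set_option autoImplicit false
set_option linter.unusedSectionVars false

namespace Cfsg.Agent.H686.AO

open Cfsg Cfsg.Lie Subgroup Cfsg.Agent.ChevalleyStructure.TwE6Basic
open Cfsg.Agent.H70.ChevDiag
open Cfsg.Agent.H967.CopMat Cfsg.Agent.H967.CopTw Cfsg.Agent.H561.RV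

universe u

/-- an element of `3`-power order which is not a cube -/
theorem exists_noncube {K : Type u} [Field K] [Finite K] {q k s : ℕ} (hK : Nat.card K = q ^ 2)
    (hs : ¬ 3 ∣ s) (hks : q + 1 = 3 ^ k * s) (hk : k ≠ 0) :
    ∃ c : mu K (3 ^ k), ¬ ∃ d : K, d ^ 3 = ((c : Kˣ) : K) := by
  have hN : Nat.card Kˣ = (q - 1) * (q + 1) := by
    have h1 := Nat.sq_sub_sq q 1
    rw [one_pow] at h1
    rw [Nat.card_units, hK, h1, mul_comm]
  have hcyc : IsCyclic Kˣ := inferInstance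
  obtain ⟨g, hg⟩ := hcyc.exists_ofOrder_eq_natCard
  have h3q : 3 ∣ q + 1 := by
    rw [hks]
    exact dvd_mul_of_dvd_left (dvd_pow_self 3 hk) s
  have h3q' : ¬ 3 ∣ q - 1 := by omega
  have hpos : 0 < Nat.card Kˣ := Nat.card_pos
  have hd : 3 ^ k ∣ Nat.card Kˣ := by
    rw [hN, hks]
    exact dvd_mul_of_dvd_right (dvd_mul_right _ _) _
  have hc : orderOf (g ^ (Nat.card Kˣ / 3 ^ k)) = 3 ^ k := by
    rw [orderOf_pow_of_dvd (Nat.div_pos (Nat.le_of_dvd hpos hd) (by positivity)).ne' (by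
      rw [hg]; exact Nat.div_dvd_of_dvd hd), hg, Nat.div_div_self hd hpos.ne']
  have hgc : (g ^ (Nat.card Kˣ / 3 ^ k)) ^ 3 ^ k = 1 := by
    rw [← pow_mul, Nat.div_mul_cancel hd, ← hg, pow_orderOf_eq_one]
  refine ⟨⟨g ^ (Nat.card Kˣ / 3 ^ k), hgc⟩, ?_⟩
  rintro ⟨d, hdc⟩
  have hd0 : d ≠ 0 := by
    rintro rfl
    rw [zero_pow (by norm_num)] at hdc
    exact (Units.ne_zero _) hdc.symm
  set u : Kˣ := Units.mk0 d hd0 with hu
  have h1 : u ^ 3 = g ^ (Nat.card Kˣ / 3 ^ k) := Units.ext hdc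
  have h2 : u ^ 3 ^ (k + 1) = 1 := by
    rw [pow_succ' 3 k, pow_mul, h1, hgc]
  have h3 : orderOf u ∣ 3 ^ (k + 1) := orderOf_dvd_of_pow_eq_one h2
  obtain ⟨j, hj, hju⟩ := (Nat.dvd_prime_pow Nat.prime_three).1 h3
  have h4 : orderOf u ∣ (q - 1) * (q + 1) := by rw [← hN]; exact orderOf_dvd_natCard u
  have h5 : 3 ^ j ∣ q + 1 := by
    rw [hju] at h4
    refine Nat.Coprime.dvd_of_dvd_mul_left ?_ h4
    exact Nat.Coprime.pow_left j ((Nat.Prime.coprime_iff_not_dvd Nat.prime_three).2 h3q')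
  have h6 : j ≤ k := by
    by_contra hjk
    have h7 : 3 ^ (k + 1) ∣ q + 1 := (pow_dvd_pow 3 (by omega)).trans h5
    rw [hks, pow_succ] at h7
    exact hs ((mul_dvd_mul_iff_left (pow_ne_zero k (by norm_num))).1 h7)
  obtain ⟨i, rfl⟩ : ∃ i, k = i + 1 := ⟨k - 1, by omega⟩
  have h8 : u ^ 3 ^ (i + 1) = 1 := by
    rw [← orderOf_dvd_iff_pow_eq_one, hju]
    exact pow_dvd_pow 3 h6
  have h9 : (g ^ (Nat.card Kˣ / 3 ^ (i + 1))) ^ 3 ^ i = 1 := by
    rw [← h1, ← pow_mul, ← pow_succ', h8]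
  have h10 := orderOf_dvd_of_pow_eq_one h9
  rw [hc] at h10
  have h11 := (Nat.pow_dvd_pow_iff_le_right (by norm_num : 1 < 3)).1 h10
  omega

/-- the order of a product with a normalised subgroup -/
theorem card_dvd_sup {G : Type*} [Group G] [Finite G] {N Z : Subgroup G} (hn : Z ≤ normalizer (N : Set G))
    (hd : ∀ z ∈ Z, z ∈ N → z = 1) : Nat.card N * Nat.card Z ∣ Nat.card ↥(Z ⊔ N) := by
  have hNle : N ≤ Z ⊔ N := le_sup_right
  have hZle : Z ≤ Z ⊔ N := le_sup_left
  have hnorm : (N.subgroupOf (Z ⊔ N)).Normal := by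
    rw [← normalizer_eq_top_iff, ← subgroupOf_normalizer_eq hNle, subgroupOf_eq_top]
    exact sup_le hn le_normalizer
  have h1 : (N.subgroupOf (Z ⊔ N)).relIndex (Z.subgroupOf (Z ⊔ N)) ∣ (N.subgroupOf (Z ⊔ N)).index :=
    relIndex_dvd_index_of_normal _ _
  rw [relIndex_subgroupOf hZle] at h1
  have h2 : N.relIndex Z = Nat.card Z := by
    have h3 : N.subgroupOf Z = ⊥ := by
      rw [eq_bot_iff]
      intro z hz
      exact mem_bot.2 (Subtype.ext (hd z z.2 hz))
    rw [relIndex, h3, index_bot]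
  rw [h2] at h1
  have h4 := card_mul_index (N.subgroupOf (Z ⊔ N))
  rw [Nat.card_congr (subgroupOfEquivOfLe hNle).toEquiv] at h4
  rw [← h4]
  exact mul_dvd_mul_left _ h1

variable {K : Type u} [Field K] [Fintype K]

theorem autOdd_twE6 {q : ℕ} (hq : IsPrimePow q) (hodd : Odd q) (hK : Fintype.card K = q ^ 2) :
    AutOdd ↥(twistedE6 K q) := by
  have hs := Cfsg.Agent.H254.isSolvable_out_of_sch (Cfsg.Agent.Schreier.TwESix.sch hq hK)
  obtain ⟨p, f, hp, hchar, hf, rfl, hK'⟩ := Cfsg.Agent.H565.CopTw.exists_params hq hK (by norm_num)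
  have : Fact p.Prime := ⟨hp⟩
  have hout := S2130.result p f hK' hf
  set S := ↥(twistedE6 K (p ^ f)) with hSdef
  have hfin : Finite (K ≃+* K) := Finite.of_injective (fun f : K ≃+* K => (f : K → K)) DFunLike.coe_injective
  have hfinG : Finite S := inferInstance
  have hfinA : Finite (MulAut S) := Finite.of_injective (fun f : MulAut S => (f : S → S)) DFunLike.coe_injective
  obtain ⟨τ, hτ⟩ := exists_ringAut p (2 * f) hK'
  obtain ⟨b, m, hm, hfm⟩ := Nat.exists_eq_two_pow_mul_odd (n := f) (by omega)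
  set σ : K ≃+* K := τ ^ 2 ^ (b + 1) with hσ
  have h2f : 2 * f = 2 ^ (b + 1) * m := by rw [hfm]; ring
  have hoσ : orderOf σ = m := by
    rw [hσ, orderOf_pow_of_dvd (pow_ne_zero _ two_ne_zero) (by rw [hτ, h2f]; exact dvd_mul_right _ _), hτ, h2f]
    exact Nat.mul_div_cancel_left m (Nat.two_pow_pos (b + 1))
  have hcardE : Nat.card (Fx σ) = (p ^ 2 ^ b) ^ 2 := by
    have h1 := card_Fx σ
    rw [hoσ, Nat.card_eq_fintype_card, hK', h2f] at h1
    have h2 : p ^ (2 ^ (b + 1) * m) = ((p ^ 2 ^ b) ^ 2) ^ m := by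
      rw [← pow_mul, ← pow_mul, pow_succ, mul_assoc]
    rw [h2] at h1
    exact (Nat.pow_left_injective hm.pos.ne' h1).symm
  obtain ⟨φ, G₀, hφ, hφφ, hle1, hle2, hidx⟩ := exists_H0 (K := K) (E := Fx σ) (q := p ^ f) (q₀ := p ^ 2 ^ b) (m := m)
    hq hodd (by rw [Nat.card_eq_fintype_card, hK]) hm (by rw [hfm, pow_mul]) hcardE
  set H : Subgroup S := (G₀.map (em (Fx σ))).subgroupOf (twistedE6 K (p ^ f)) with hH
  -- the Sylow subgroup
  obtain ⟨Q⟩ : Nonempty (Sylow 2 H) := inferInstance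
  have h1 : ¬ 2 ∣ ((Q : Subgroup H).map H.subtype).index := by
    rw [index_map_subtype]
    intro hd
    rcases (Nat.prime_two.dvd_mul).1 hd with h | h
    · exact Q.not_dvd_index h
    · exact hidx h
  set P₀ : Sylow 2 S := (Q.isPGroup'.map H.subtype).toSylow h1 with hP₀
  have hP₀H : ∀ x ∈ P₀, x ∈ H := fun x hx => map_subtype_le _ hx
  have hfixH : ∀ x ∈ H, fieldAut (stab_e6 (K := K) (p ^ f)) σ x = x := by
    rintro x ⟨y, hy, hyx⟩
    have h2 : Matrix.GeneralLinearGroup.map (Fx σ).subtype y = (x : GL chevE6.Idx K) := hyx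
    apply Subtype.ext
    rw [coe_fieldAut, ← h2]
    exact map_fixed σ y
  -- the three-part of `q + 1`
  obtain ⟨k, s, hs3, hks⟩ := Nat.exists_eq_pow_mul_and_not_dvd (Nat.succ_ne_zero (p ^ f)) 3 (by norm_num)
  have hks' : p ^ f + 1 = 3 ^ k * s := hks
  have hn : 3 ^ k ∣ p ^ f + 1 := by rw [hks']; exact dvd_mul_right _ _
  have hfixD : ∀ c : mu K (3 ^ k), ∀ x ∈ H, dl hn c x = x := by
    intro c x hx
    have hx0 : (x : GL chevE6.Idx K) ∈ H0 φ (p ^ f) := hle1 hx
    have hx1 := H0_le_CC (ch_mul (c : Kˣ)) hφ hφφ (ch_one (c : Kˣ)) hx0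
    rw [mem_CC] at hx1
    apply Subtype.ext
    rw [coe_dl, hx1, mul_inv_cancel_right]
  set D : Subgroup (MulAut S) := (dl hn).range with hD
  set t : MulAut S := fieldAut (stab_e6 (K := K) (p ^ f)) σ with ht
  refine autOdd_of_index hs P₀ (zpowers t ⊔ D) ?_ ?_
  · intro ψ hψ x hx
    have hle : zpowers t ⊔ D ≤ MulAction.stabilizer (MulAut S) x := by
      refine sup_le ?_ ?_
      · rw [zpowers_le]
        exact hfixH x (hP₀H x hx)
      · rintro _ ⟨c, rfl⟩
        exact hfixD c x (hP₀H x hx)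
    exact hle hψ
  · set mk := QuotientGroup.mk' (Inn S) with hmk
    set C := zpowers t ⊔ D with hC
    have hidx2 : (C.map mk).index = (C ⊔ Inn S).index := by
      rw [index_map, hmk, QuotientGroup.ker_mk', MonoidHom.range_eq_top.2 (QuotientGroup.mk'_surjective _),
        index_top, mul_one]
    have hCmap : C.map mk = zpowers (mk t) ⊔ D.map mk := by
      rw [hC, Subgroup.map_sup, MonoidHom.map_zpowers]
    -- the key facts
    have key1 : ∀ (ρ : K ≃+* K) (c : mu K (3 ^ k)), mk (fieldAut (stab_e6 (K := K) (p ^ f)) ρ) = mk (dl hn c) → ρ = 1 := by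
      intro ρ c hρ
      have h2 : mk (dl hn c⁻¹ * fieldAut (stab_e6 (K := K) (p ^ f)) ρ) = 1 := by
        rw [map_mul, hρ, ← map_mul, ← map_mul, inv_mul_cancel, map_one, map_one]
      obtain ⟨y, hy⟩ := (QuotientGroup.eq_one_iff _).1 h2
      exact (key hq hK hn c⁻¹ ρ y hy).1
    have key2 : ∀ c : mu K (3 ^ k), mk (dl hn c) = 1 → ∃ d : K, d ^ 3 = ((c : Kˣ) : K) := by
      intro c hc
      obtain ⟨y, hy⟩ := (QuotientGroup.eq_one_iff _).1 hc
      refine (key hq hK hn c 1 y ?_).2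
      rw [map_one, mul_one]
      exact hy
    -- the order of `t`
    have hinj : Function.Injective (mk.comp (fieldAut (stab_e6 (K := K) (p ^ f)))) := by
      rw [injective_iff_map_eq_one]
      intro ρ hρ
      refine key1 ρ 1 ?_
      rw [map_one (dl hn), map_one mk]
      exact hρ
    have hot : Nat.card (zpowers (mk t)) = m := by
      rw [Nat.card_zpowers, ← hoσ]
      exact orderOf_injective _ hinj σ
    -- normalisation
    have hnorm : zpowers (mk t) ≤ normalizer ((D.map mk : Subgroup (Out S)) : Set (Out S)) := by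
      have step : ∀ ρ : K ≃+* K, ∀ x ∈ D.map mk, mk (fieldAut (stab_e6 (K := K) (p ^ f)) ρ) * x *
          (mk (fieldAut (stab_e6 (K := K) (p ^ f)) ρ))⁻¹ ∈ D.map mk := by
        rintro ρ _ ⟨_, ⟨c, rfl⟩, rfl⟩
        rw [← map_mul, ← map_inv, ← map_mul, fieldAut_dl, mul_inv_cancel_right]
        exact ⟨_, ⟨_, rfl⟩, rfl⟩
      rw [zpowers_le, mem_normalizer_iff]
      intro x
      refine ⟨fun hx => step σ x hx, fun hx => ?_⟩
      have h2 := step σ⁻¹ _ hx
      have e : mk (fieldAut (stab_e6 (K := K) (p ^ f)) σ⁻¹) = (mk t)⁻¹ := by rw [map_inv, map_inv]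
      rw [e] at h2
      have e2 : (mk t)⁻¹ * (mk t * x * (mk t)⁻¹) * (mk t)⁻¹⁻¹ = x := by group
      rwa [e2] at h2
    have hdis : ∀ z ∈ zpowers (mk t), z ∈ D.map mk → z = 1 := by
      rintro z hz ⟨_, ⟨c, rfl⟩, hcz⟩
      obtain ⟨j, rfl⟩ := mem_zpowers_iff.1 hz
      have h2 : σ ^ j = 1 := by
        refine key1 (σ ^ j) c ?_
        rw [hcz, map_zpow, map_zpow]
      have h3 : mk t ^ j = mk (fieldAut (stab_e6 (K := K) (p ^ f)) (σ ^ j)) := by rw [map_zpow, map_zpow]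
      rw [h3, h2, map_one, map_one]
    have hdvd := card_dvd_sup hnorm hdis
    rw [← hCmap, hot] at hdvd
    -- the three part
    have hg : Nat.gcd 3 (p ^ f + 1) ∣ Nat.card ↥(D.map mk) := by
      by_cases h3 : 3 ∣ p ^ f + 1
      · rw [Nat.gcd_eq_left h3]
        have hk : k ≠ 0 := by
          rintro rfl
          rw [hks', pow_zero, one_mul] at h3
          exact hs3 h3
        obtain ⟨c, hc⟩ := exists_noncube (K := K) (by rw [Nat.card_eq_fintype_card, hK]) hs3 hks' hk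
        have hP : IsPGroup 3 ↥(D.map mk) := by
          have h4 : IsPGroup 3 (mu K (3 ^ k)) := fun x => ⟨k, Subtype.ext (by
            have := x.2
            exact mem_mu.1 this)⟩
          have h5 : D.map mk = (mk.comp (dl hn)).range := by
            rw [hD, MonoidHom.range_comp]
          rw [h5]
          exact h4.of_surjective _ (mk.comp (dl hn)).rangeRestrict_surjective
        rcases hP.card_eq_or_dvd with h | h
        · exfalso
          apply hc
          refine key2 c ?_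
          have h5 : D.map mk = ⊥ := (card_eq_one).1 h
          have h6 : mk (dl hn c) ∈ D.map mk := ⟨_, ⟨c, rfl⟩, rfl⟩
          rw [h5] at h6
          exact mem_bot.1 h6
        · exact h
      · rw [((Nat.Prime.coprime_iff_not_dvd Nat.prime_three).2 h3 : Nat.gcd 3 (p ^ f + 1) = 1)]
        exact one_dvd _
    intro r hr hd
    rw [← hidx2] at hd
    have h2 : Nat.gcd 3 (p ^ f + 1) * m ∣ Nat.card ↥(C.map mk) := (mul_dvd_mul_right hg m).trans hdvd
    obtain ⟨e, he⟩ := h2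
    have h3 := card_mul_index (C.map mk)
    rw [hout, he] at h3
    have h4 : Nat.gcd 3 (p ^ f + 1) * m * (e * (C.map mk).index) = Nat.gcd 3 (p ^ f + 1) * m * 2 ^ (b + 1) := by
      calc _ = Nat.gcd 3 (p ^ f + 1) * m * e * (C.map mk).index := by ring
        _ = 2 * Nat.gcd 3 (p ^ f + 1) * f := h3
        _ = Nat.gcd 3 (p ^ f + 1) * (2 * f) := by ring
        _ = _ := by rw [h2f]; ring
    have h5 := Nat.eq_of_mul_eq_mul_left (Nat.mul_pos (Nat.gcd_pos_of_pos_left _ (by norm_num)) hm.pos) h4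
    have h6 : r ∣ 2 ^ (b + 1) := by
      rw [← h5]
      exact dvd_mul_of_dvd_right hd e
    exact (Nat.prime_dvd_prime_iff_eq hr Nat.prime_two).1 (hr.dvd_of_dvd_pow h6)

/-- **`²E₆(q)`** -/
theorem autOdd_2e6 {F : Type} [Field F] [Fintype F] {q : ℕ} (hq : IsPrimePow q) (hodd : Odd q)
    (hF : Fintype.card F = q ^ 2) : AutOdd (Lie.twistedE6 F q) := autOdd_twE6 hq hodd hF

end Cfsg.Agent.H686.AO
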